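import Mathlib.RingTheory.Ideal.Operations
import Mathlib.LinearAlgebra.FreeModule.Finite.Basic
import Mathlib.LinearAlgebra.FreeModule.Basic
import Mathlib.RingTheory.Finiteness.Basic
import Mathlib.RingTheory.Noetherian.Basic
import Mathlib.Algebra.Module.Torsion.Basic
import Groth.Agent.FormalB.FreeUpTo

/-!
# Families in `J^n` lifting a basis of `J^n / J^{n+1}` over `A / J`
-/

set_option autoImplicit false
universe u

namespace Groth.Agent.Sga2lef.H100.GrBasis

variable {A : Type u} [CommRing A] (J : Ideal A)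

/-- `ω` lifts a basis of `J^n / J^{n+1}`. -/
structure IsBasis (n : ℕ) {r : ℕ} (ω : Fin r → A) : Prop where
  mem : ∀ i, ω i ∈ J ^ n
  span : ∀ x ∈ J ^ n, ∃ c : Fin r → A, x - ∑ i, ω i * c i ∈ J ^ (n + 1)
  indep : ∀ c : Fin r → A, ∑ i, ω i * c i ∈ J ^ (n + 1) → ∀ i, c i ∈ J

theorem mem_smul_iff (n : ℕ) (x : ↥(J ^ n)) :
    x ∈ (J • (⊤ : Submodule A ↥(J ^ n))) ↔ (x : A) ∈ J ^ (n + 1) := by
  rw [Submodule.mem_smul_top_iff, pow_succ', smul_eq_mul]

theorem exists_basis [IsNoetherianRing A] (n : ℕ)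
    (h : Module.Free (A ⧸ J) (↥(J ^ n) ⧸ (J • (⊤ : Submodule A ↥(J ^ n))))) :
    ∃ (r : ℕ) (ω : Fin r → A), IsBasis J n ω := by
  classical
  let M := ↥(J ^ n) ⧸ (J • (⊤ : Submodule A ↥(J ^ n)))
  have h1 : Module.Finite A ↥(J ^ n) := Module.Finite.iff_fg.2 (IsNoetherian.noetherian _)
  have h2 : Module.Finite A M := inferInstance
  have h3 : Module.Finite (A ⧸ J) M := by
    obtain ⟨s, hs⟩ := h2.fg_top
    refine ⟨⟨s, ?_⟩⟩
    rw [Submodule.eq_top_iff']
    intro x
    have hx : x ∈ Submodule.span A (s : Set M) := by rw [hs]; trivial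
    induction hx using Submodule.span_induction with
    | mem x hx => exact Submodule.subset_span hx
    | zero => exact Submodule.zero_mem _
    | add x y _ _ hx hy => exact Submodule.add_mem _ hx hy
    | smul c x _ hx =>
      have h4 : c • x = (Ideal.Quotient.mk J c) • x := by
        obtain ⟨x, rfl⟩ := Submodule.Quotient.mk_surjective _ x
        rw [Module.Quotient.mk_smul_mk]
        rfl
      rw [h4]
      exact Submodule.smul_mem _ _ hx
  let ι := Module.Free.ChooseBasisIndex (A ⧸ J) M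
  let b0 : Module.Basis ι (A ⧸ J) M := Module.Free.chooseBasis (A ⧸ J) M
  have hfin : Finite ι := inferInstance
  have : Fintype ι := Fintype.ofFinite ι
  let b : Module.Basis (Fin (Fintype.card ι)) (A ⧸ J) M := b0.reindex (Fintype.equivFin ι)
  choose ω hω using fun i => Submodule.Quotient.mk_surjective _ (b i)
  have key : ∀ c : Fin (Fintype.card ι) → A,
      (Submodule.Quotient.mk (∑ i, c i • ω i) : M) = ∑ i, (Ideal.Quotient.mk J (c i)) • b i := by
    intro c
    have h5 : (Submodule.Quotient.mk (∑ i, c i • ω i) : M) =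
        ∑ i, (Submodule.Quotient.mk (c i • ω i) : M) :=
      map_sum (Submodule.mkQ (J • (⊤ : Submodule A ↥(J ^ n)))) _ _
    rw [h5]
    refine Finset.sum_congr rfl fun i _ => ?_
    rw [← hω i, Module.Quotient.mk_smul_mk]
  have hval : ∀ c : Fin (Fintype.card ι) → A,
      ((∑ i, c i • ω i : ↥(J ^ n)) : A) = ∑ i, (ω i : A) * c i := by
    intro c
    rw [AddSubmonoidClass.coe_finsetSum]
    refine Finset.sum_congr rfl fun i _ => ?_
    change c i * (ω i : A) = _
    rw [mul_comm]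
  refine ⟨Fintype.card ι, fun i => (ω i : A), fun i => (ω i).2, ?_, ?_⟩
  · intro x hx
    choose c hc using fun i => Ideal.Quotient.mk_surjective (b.repr (Submodule.Quotient.mk ⟨x, hx⟩) i)
    refine ⟨c, ?_⟩
    have h6 : (Submodule.Quotient.mk (⟨x, hx⟩ - ∑ i, c i • ω i) : M) = 0 := by
      rw [Submodule.Quotient.mk_sub, key, sub_eq_zero]
      refine (b.sum_repr _).symm.trans ?_
      exact Finset.sum_congr rfl fun i _ => by rw [hc]
    rw [Submodule.Quotient.mk_eq_zero, mem_smul_iff] at h6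
    have h7 : ((⟨x, hx⟩ - ∑ i, c i • ω i : ↥(J ^ n)) : A) = x - ∑ i, (ω i : A) * c i := by
      rw [← hval]; rfl
    rwa [h7] at h6
  · intro c hc i
    rw [← hval c, ← mem_smul_iff, ← Submodule.Quotient.mk_eq_zero, key] at hc
    have h8 := (Fintype.linearIndependent_iff.1 b.linearIndependent) _ hc i
    exact Ideal.Quotient.eq_zero_iff_mem.1 h8

open Groth.Agent.FormalB.FreeUpTo

/-- The algebraic heart of the injectivity: let `N` be free up to `g`-torsion over `A/J^{n+1}`.  If
`∑ ω_i y_i = 0` in `N` then the `y_i` lie in `J N` up to `g`-torsion. -/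
theorem exists_pow_smul_mem {n : ℕ} {r : ℕ} {ω : Fin r → A} (hω : IsBasis J n ω) {N : Type u}
    [AddCommGroup N] [Module A N] (g : A) {κ : Type} [Finite κ]
    (hfr : IsFreeUpTo g (A ⧸ J ^ (n + 1)) N κ) (y : Fin r → N) (hy : ∑ i, ω i • y i = 0) :
    ∃ k : ℕ, ∀ i, g ^ k • y i ∈ (J • (⊤ : Submodule A N)) := by
  classical
  cases nonempty_fintype κ
  obtain ⟨k, α, β, hβα, -⟩ := hfr
  refine ⟨k, fun i => ?_⟩
  rw [← hβα]
  have h1 : α (y i) ∈ (J • (⊤ : Submodule A (κ → A ⧸ J ^ (n + 1)))) := by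
    have h2 : ∀ j, ∃ c : Fin r → A, ∀ i, Ideal.Quotient.mk (J ^ (n + 1)) (c i) = α (y i) j :=
      fun j => by
        choose c hc using fun i => Ideal.Quotient.mk_surjective (α (y i) j)
        exact ⟨c, hc⟩
    choose c hc using h2
    have h3 : ∀ j, ∀ i, c j i ∈ J := by
      intro j
      refine hω.indep (c j) ?_
      rw [← Ideal.Quotient.eq_zero_iff_mem, map_sum]
      have h4 := congrFun (congrArg α hy) j
      rw [map_sum, map_zero, Finset.sum_apply] at h4
      refine Eq.trans ?_ h4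
      refine Finset.sum_congr rfl fun i _ => ?_
      rw [map_mul, hc, map_smul]
      rfl
    have h5 : α (y i) = ∑ j, c j i • (Pi.single j (1 : A ⧸ J ^ (n + 1)) : κ → A ⧸ J ^ (n + 1)) := by
      ext j
      rw [Finset.sum_apply, Finset.sum_eq_single j]
      · rw [Pi.smul_apply, Pi.single_eq_same, ← hc j i, Algebra.smul_def, mul_one]
        rfl
      · intro b _ hb
        rw [Pi.smul_apply, Pi.single_eq_of_ne hb.symm, smul_zero]
      · intro h; exact absurd (Finset.mem_univ j) h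
    rw [h5]
    exact Submodule.sum_mem _ fun j _ => Submodule.smul_mem_smul (h3 j i) trivial
  have h6 := Submodule.mem_map_of_mem (f := β) h1
  rw [Submodule.map_smul''] at h6
  exact Submodule.smul_mono le_rfl le_top h6

/-- The injectivity statement: `τ : P → P0` is the reduction modulo `J`, `μ i : P0 → P` is multiplication
by `ω i`; everything up to `g`-torsion. -/
theorem exists_pow_smul_eq_zero {n : ℕ} {r : ℕ} {ω : Fin r → A} (hω : IsBasis J n ω)
    {P0 P : Type u} [AddCommGroup P0] [Module A P0] [AddCommGroup P] [Module A P]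
    (τ : P →ₗ[A] P0) (μ : Fin r → P0 →ₗ[A] P) (hμτ : ∀ i y, μ i (τ y) = ω i • y)
    (hJ : ∀ a ∈ J, ∀ x : P0, a • x = 0) (N : Submodule A P) (g : A)
    (hN : ∀ t : P, ∃ l : ℕ, g ^ l • t ∈ N) (hτ : ∀ s : P0, ∃ (k : ℕ) (t : P), τ t = g ^ k • s)
    {κ : Type} [Finite κ] (hfr : IsFreeUpTo g (A ⧸ J ^ (n + 1)) N κ) (q : Fin r → P0)
    (hq : ∑ i, μ i (q i) = 0) : ∃ k : ℕ, ∀ i, g ^ k • q i = 0 := by
  classical
  have h1 : ∀ i, ∃ (k : ℕ) (y : N), τ (y : P) = g ^ k • q i := by
    intro i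
    obtain ⟨k, t, ht⟩ := hτ (q i)
    obtain ⟨l, hl⟩ := hN t
    exact ⟨l + k, ⟨g ^ l • t, hl⟩, by rw [map_smul, pow_add, mul_smul, ht]⟩
  choose k y hy using h1
  let K0 := Finset.univ.sup k
  have hk : ∀ i, k i ≤ K0 := fun i => Finset.le_sup (Finset.mem_univ i)
  let y' : Fin r → N := fun i => g ^ (K0 - k i) • y i
  have hy' : ∀ i, τ (y' i : P) = g ^ K0 • q i := by
    intro i
    change τ (g ^ (K0 - k i) • (y i : P)) = _
    rw [map_smul, hy, ← mul_smul, ← pow_add, Nat.sub_add_cancel (hk i)]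
  have h4 : ∑ i, ω i • y' i = 0 := by
    apply Subtype.ext
    rw [AddSubmonoidClass.coe_finsetSum]
    change ∑ i, ω i • (y' i : P) = 0
    have h2 : ∀ i, ω i • (y' i : P) = g ^ K0 • μ i (q i) := fun i => by
      rw [← hμτ, hy', map_smul]
    rw [Finset.sum_congr rfl fun i _ => h2 i, ← Finset.smul_sum, hq, smul_zero]
  obtain ⟨l, hl⟩ := exists_pow_smul_mem J hω g hfr y' h4
  refine ⟨l + K0, fun i => ?_⟩
  have h10 : ∀ z ∈ (J • (⊤ : Submodule A N)), τ (z : P) = 0 := by
    intro z hz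
    refine Submodule.smul_induction_on hz ?_ ?_
    · intro a ha z _
      change τ (a • (z : P)) = 0
      rw [map_smul]
      exact hJ a ha _
    · intro z z' hz hz'
      change τ ((z : P) + z') = 0
      rw [map_add, hz, hz', add_zero]
  have h11 := h10 _ (hl i)
  change τ (g ^ l • (y' i : P)) = 0 at h11
  rw [map_smul, hy'] at h11
  rw [pow_add, mul_smul]
  exact h11

end Groth.Agent.Sga2lef.H100.GrBasis
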