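import Groth.Agent.Sga2lef.H100.GrSys
import Groth.Agent.Sga2lef.H100.GrBasis
import Groth.Agent.FormalB.LocFreeTheta
import Groth.Agent.FormalB.PuncSys
import Groth.Agent.CohqA.HBiprod

/-!
# The graded pieces of a locally free formal system when `gr_J(A)` is free

`U` open in `Spec A`, `G` a formal system for `J` with `G_n` finite locally free over `O_U/J^{n+1}` and
`J^n/J^{n+1}` free over `A/J` with basis `ω_i`: the map `⨁ G_0 → K n = ker (G_n → G_{n-1})` with
components `kap n ω_i` is an isomorphism.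
-/

set_option autoImplicit false
universe u

open CategoryTheory CategoryTheory.Limits AlgebraicGeometry Opposite TopologicalSpace

namespace Groth.Agent.Sga2lef.H100.GrFree

open Groth.Agent.FormalB.ModPow Groth.Agent.FormalB.HMod Groth.Agent.FormalB.PrincTower
  Groth.Agent.FormalB.PuncTheta Groth.Agent.FormalB.PuncTheta2 Groth.Agent.FormalB.FreeUpTo
  GrSys GrBasis

attribute [local instance] Abelian.hasFiniteBiproducts

section General

variable {A : Type u} [CommRing A] {X : Scheme.{u}} [X.Over (Spec (CommRingCat.of A))]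
  {J : Ideal A} {G : ℕᵒᵖ ⥤ X.Modules}

/-- The map `⨁ G_0 → G_n` given by a family in `J^n`. -/
noncomputable def phi (hG : IsFormal J G) (n : ℕ) {r : ℕ} (ω : Fin r → A) (hω : ∀ i, ω i ∈ J ^ n) :
    (⨁ fun _ : Fin r => G.obj (op 0)) ⟶ G.obj (op n) :=
  biproduct.desc fun i => m hG n (ω i) (hω i)

theorem phi_tr (hG : IsFormal J G) (n : ℕ) {r : ℕ} (ω : Fin r → A) (hω : ∀ i, ω i ∈ J ^ (n + 1)) :
    phi hG (n + 1) ω hω ≫ tr G n = 0 := by
  refine biproduct.hom_ext' _ _ fun i => ?_
  rw [phi, biproduct.ι_desc_assoc, comp_zero, m_tr]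

/-- the ideal of elements killed after composition with `k`. -/
noncomputable def ann {M Z : X.Modules} (k : M ⟶ Z) : Ideal A where
  carrier := {x | Formal.smulMod A M x ≫ k = 0}
  zero_mem' := by
    change Formal.smulMod A M 0 ≫ k = 0
    rw [smulMod_zero, zero_comp]
  add_mem' := fun {x y} hx hy => by
    change Formal.smulMod A M (x + y) ≫ k = 0
    have hx' : Formal.smulMod A M x ≫ k = 0 := hx
    have hy' : Formal.smulMod A M y ≫ k = 0 := hy
    rw [smulMod_add, Preadditive.add_comp, hx', hy', add_zero]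
  smul_mem' := fun c x hx => by
    change Formal.smulMod A M (c * x) ≫ k = 0
    have hx' : Formal.smulMod A M x ≫ k = 0 := hx
    rw [mul_comm, smulMod_mul, Category.assoc, hx', comp_zero]

theorem exact_phi (hG : IsFormal J G) (n : ℕ) {r : ℕ} {ω : Fin r → A} (h : IsBasis J (n + 1) ω) :
    (ShortComplex.mk (phi hG (n + 1) ω h.mem) (tr G n) (phi_tr hG n ω h.mem)).Exact := by
  have hepi := (hG.succ n).epi
  have key : ∀ {Z : X.Modules} (k : G.obj (op (n + 1)) ⟶ Z), phi hG (n + 1) ω h.mem ≫ k = 0 →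
      ∃ ψ : G.obj (op n) ⟶ Z, tr G n ≫ ψ = k := by
    intro Z k hk
    refine (hG.succ n).desc k fun x hx => ?_
    change x ∈ ann k
    obtain ⟨c, hc⟩ := h.span x hx
    have h1 : x - ∑ i, ω i * c i ∈ ann k := by
      change Formal.smulMod A _ _ ≫ k = 0
      rw [hG.killed (n + 1) _ hc, zero_comp]
    have h2 : ∑ i, ω i * c i ∈ ann k := by
      refine Ideal.sum_mem _ fun i _ => Ideal.mul_mem_right _ _ ?_
      change Formal.smulMod A _ (ω i) ≫ k = 0
      have h3 : m hG (n + 1) (ω i) (h.mem i) ≫ k = 0 := by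
        have h4 := congrArg (fun t => biproduct.ι (fun _ : Fin r => G.obj (op 0)) i ≫ t) hk
        simpa only [phi, biproduct.ι_desc_assoc, comp_zero] using h4
      rw [← t0_m hG (n + 1) (ω i) (h.mem i), Category.assoc, h3, comp_zero]
    have h5 := Ideal.add_mem _ h1 h2
    rwa [sub_add_cancel] at h5
  apply ShortComplex.exact_of_g_is_cokernel
  exact CokernelCofork.IsColimit.ofπ _ _ (fun {Z} k hk => (key k hk).choose) (fun {Z} k hk =>
    (key k hk).choose_spec) (fun {Z} k hk m hm => (cancel_epi (tr G n)).1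
      (hm.trans (key k hk).choose_spec.symm))

/-- The map to the graded piece. -/
noncomputable def Phi (hG : IsFormal J G) (n : ℕ) {r : ℕ} (ω : Fin r → A) (hω : ∀ i, ω i ∈ J ^ (n + 1)) :
    (⨁ fun _ : Fin r => G.obj (op 0)) ⟶ K G (n + 1) :=
  liftK G n (phi hG (n + 1) ω hω) (phi_tr hG n ω hω)

theorem ι_Phi (hG : IsFormal J G) (n : ℕ) {r : ℕ} (ω : Fin r → A) (hω : ∀ i, ω i ∈ J ^ (n + 1))
    (i : Fin r) : biproduct.ι (fun _ : Fin r => G.obj (op 0)) i ≫ Phi hG n ω hω =
      kap hG (n + 1) (ω i) (hω i) := by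
  rw [← cancel_mono (io G (n + 1)), Category.assoc, Phi, liftK_io, phi, biproduct.ι_desc, kap_io]

theorem isIso_Phi (hG : IsFormal J G) (n : ℕ) {r : ℕ} {ω : Fin r → A} (h : IsBasis J (n + 1) ω)
    (hm : Mono (phi hG (n + 1) ω h.mem)) : IsIso (Phi hG n ω h.mem) := by
  have h1 : Epi (Phi hG n ω h.mem) :=
    (ShortComplex.exact_iff_epi_kernel_lift _).1 (exact_phi hG n h)
  have h2 : Mono (Phi hG n ω h.mem ≫ io G (n + 1)) := by
    rw [Phi, liftK_io]
    exact hm
  have h3 : Mono (Phi hG n ω h.mem) := mono_of_mono _ (io G (n + 1))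
  exact isIso_of_mono_of_epi _

theorem gen_of_mono (hG : IsFormal J G) (h : ∀ n, ∃ (r : ℕ) (ω : Fin r → A) (h : IsBasis J (n + 1) ω),
    Mono (phi hG (n + 1) ω h.mem)) (j : ℕ) : Gen hG j := by
  intro n x
  obtain ⟨r, ω, hω, hm⟩ := h n
  have := isIso_Phi hG n hω hm
  have h1 : (∑ i : Fin r, (inv (Phi hG n ω hω.mem) ≫
      biproduct.π (fun _ : Fin r => G.obj (op 0)) i) ≫ kap hG (n + 1) (ω i) (hω.mem i)) = 𝟙 _ := by
    have h2 : ∀ i : Fin r, (inv (Phi hG n ω hω.mem) ≫
        biproduct.π (fun _ : Fin r => G.obj (op 0)) i) ≫ kap hG (n + 1) (ω i) (hω.mem i) =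
        inv (Phi hG n ω hω.mem) ≫ (biproduct.π (fun _ : Fin r => G.obj (op 0)) i ≫
          biproduct.ι (fun _ : Fin r => G.obj (op 0)) i) ≫ Phi hG n ω hω.mem := by
      intro i
      rw [Category.assoc, Category.assoc, ι_Phi]
    rw [Finset.sum_congr rfl fun i _ => h2 i, ← Preadditive.comp_sum, ← Preadditive.sum_comp,
      biproduct.total, Category.id_comp, IsIso.inv_hom_id]
  have h3 : x = ∑ i : Fin r, (HM A X j).map (kap hG (n + 1) (ω i) (hω.mem i))
      ((HM A X j).map (inv (Phi hG n ω hω.mem) ≫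
        biproduct.π (fun _ : Fin r => G.obj (op 0)) i) x) := by
    have h4 := congrArg (fun t => ((HM A X j).map t).hom x) h1
    rw [Functor.map_sum, CategoryTheory.Functor.map_id, ModuleCat.hom_sum,
      LinearMap.sum_apply] at h4
    refine Eq.trans (Eq.trans ?_ h4.symm) ?_
    · rfl
    · refine Finset.sum_congr rfl fun i _ => ?_
      rw [Functor.map_comp]
      rfl
  rw [h3]
  exact AddSubgroup.sum_mem _ fun i _ => AddSubgroup.subset_closure ⟨ω i, hω.mem i, _, rfl⟩

end General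

section Open

variable {A : Type u} [CommRing A] (U : (Spec (CommRingCat.of A)).Opens)

/-- A morphism of quasi-coherent modules is mono if the kernel on global sections is torsion. -/
theorem mono_of_gam (hU : IsCompact (U : Set (Spec (CommRingCat.of A))))
    {M N : (U : Scheme.{u}).Modules} (hM : Coh.IsQCoh M) (hN : Coh.IsQCoh N) (φ : M ⟶ N)
    (h : ∀ x ∈ U, ∃ g : A, x ∈ D g ∧ ∀ s : (Gam U).obj M, (Gam U).map φ s = 0 → ∃ k : ℕ, g ^ k • s = 0) :
    Mono φ := by
  have h1 : IsTorsOn U (LinearMap.ker ((Gam U).map φ).hom) := by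
    refine isTorsOn_of_forall_mem U fun x hx => ?_
    obtain ⟨g, hxg, hg⟩ := h x hx
    refine ⟨g, hxg, fun q => ?_⟩
    obtain ⟨k, hk⟩ := hg q.1 q.2
    exact ⟨k, Subtype.ext hk⟩
  have h2 : Mono (thetaMap U ((Gam U).map φ).hom) := (mono_thetaMap_iff U _).2 h1
  have h3 : (Theta U).map ((Gam U).map φ) ≫ (adj U).counit.app N = (adj U).counit.app M ≫ φ :=
    (adj U).counit.naturality φ
  have i1 := isIso_counit U hU M hM
  have i2 := isIso_counit U hU N hN
  have h4 : φ = inv ((adj U).counit.app M) ≫ (Theta U).map ((Gam U).map φ) ≫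
      (adj U).counit.app N := by
    rw [h3, IsIso.inv_hom_id_assoc]
  have h5 : Mono ((Theta U).map ((Gam U).map φ)) := h2
  rw [h4]
  infer_instance

/-- An epimorphism of quasi-coherent modules is surjective on global sections up to torsion. -/
theorem exists_lift_of_epi (hU : IsCompact (U : Set (Spec (CommRingCat.of A))))
    {M N : (U : Scheme.{u}).Modules} (hM : Coh.IsQCoh M) (hN : Coh.IsQCoh N) (φ : M ⟶ N) [Epi φ]
    (g : A) (hg : D g ≤ U) (s : (Gam U).obj N) : ∃ (k : ℕ) (t : (Gam U).obj M),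
      (Gam U).map φ t = g ^ k • s := by
  have h3 : (Theta U).map ((Gam U).map φ) ≫ (adj U).counit.app N = (adj U).counit.app M ≫ φ :=
    (adj U).counit.naturality φ
  have i1 := isIso_counit U hU M hM
  have i2 := isIso_counit U hU N hN
  have h4 : Epi (thetaMap U ((Gam U).map φ).hom) := by
    change Epi ((Theta U).map ((Gam U).map φ))
    have h5 : Epi ((Theta U).map ((Gam U).map φ) ≫ (adj U).counit.app N) := by
      rw [h3]; infer_instance
    have h6 : (Theta U).map ((Gam U).map φ) = ((Theta U).map ((Gam U).map φ) ≫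
        (adj U).counit.app N) ≫ inv ((adj U).counit.app N) := by
      rw [Category.assoc, IsIso.hom_inv_id, Category.comp_id]
    rw [h6]
    infer_instance
  obtain ⟨k, hk⟩ := (epi_thetaMap_iff U _).1 h4 g hg (Submodule.Quotient.mk s)
  rw [← Submodule.Quotient.mk_smul, Submodule.Quotient.mk_eq_zero] at hk
  obtain ⟨t, ht⟩ := hk
  exact ⟨k, t, ht⟩

variable {J : Ideal A} {G : ℕᵒᵖ ⥤ (U : Scheme.{u}).Modules}

/-- sections of a finite direct sum. -/
theorem gam_sum {r : ℕ} {M N : (U : Scheme.{u}).Modules} (f : Fin r → (M ⟶ N))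
    (s : (Gam U).obj (⨁ fun _ : Fin r => M)) :
    (Gam U).map (biproduct.desc f) s =
      ∑ i, ((Gam U).map (f i)).hom ((Gam U).map (biproduct.π (fun _ : Fin r => M) i) s) := by
  have h5 : biproduct.desc f = ∑ i : Fin r, biproduct.π (fun _ : Fin r => M) i ≫ f i := by
    refine biproduct.hom_ext' _ _ fun j => ?_
    rw [biproduct.ι_desc, Preadditive.comp_sum, Finset.sum_eq_single j]
    · rw [biproduct.ι_π_self_assoc]
    · intro b _ hb
      rw [biproduct.ι_π_ne_assoc _ hb.symm, zero_comp]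
    · intro h; exact absurd (Finset.mem_univ j) h
  rw [h5, Functor.map_sum]
  change (∑ i, (Gam U).map (biproduct.π (fun _ : Fin r => M) i ≫ f i)).hom s = _
  rw [ModuleCat.hom_sum, LinearMap.sum_apply]
  refine Finset.sum_congr rfl fun i _ => ?_
  rw [Functor.map_comp]
  rfl

theorem gam_zero {r : ℕ} {M : (U : Scheme.{u}).Modules} (s : (Gam U).obj (⨁ fun _ : Fin r => M)) (g : A)
    (h : ∀ i, g • ((Gam U).map (biproduct.π (fun _ : Fin r => M) i)).hom s = 0) : g • s = 0 := by
  have h12 : (∑ i : Fin r, biproduct.π (fun _ : Fin r => M) i ≫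
      biproduct.ι (fun _ : Fin r => M) i) = 𝟙 _ := biproduct.total
  have h13 := congrArg (fun t => ((Gam U).map t).hom s) h12
  rw [Functor.map_sum, ModuleCat.hom_sum, LinearMap.sum_apply, CategoryTheory.Functor.map_id] at h13
  have h14 : s = ∑ i, ((Gam U).map (biproduct.ι (fun _ : Fin r => M) i)).hom
      (((Gam U).map (biproduct.π (fun _ : Fin r => M) i)).hom s) := by
    refine Eq.trans h13.symm (Finset.sum_congr rfl fun i _ => ?_)
    rw [Functor.map_comp]
    rfl
  rw [h14, Finset.smul_sum]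
  refine Finset.sum_eq_zero fun i _ => ?_
  rw [← map_smul, h i, map_zero]

theorem gam_m (hG : IsFormal J G) (n : ℕ) (ω : A) (hω : ω ∈ J ^ n) (y : (Gam U).obj (G.obj (op n))) :
    ((Gam U).map (m hG n ω hω)).hom (((Gam U).map (t0 G n)).hom y) = ω • y := by
  have h3 := congrArg (fun t => ((Gam U).map t).hom y) (t0_m hG n ω hω)
  rw [gam_map_smulMod, Functor.map_comp] at h3
  exact h3

theorem mono_phi [IsNoetherianRing A] (hU : IsCompact (U : Set (Spec (CommRingCat.of A))))
    (hG : IsFormal J G) (hcoh : ∀ n : ℕ, Coh.IsCoh (G.obj (op n))) (n : ℕ)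
    (hfree : Formal2.IsFinLocFreeMod J (n + 1) (G.obj (op n))) {r : ℕ} {ω : Fin r → A}
    (h : IsBasis J n ω) : Mono (phi hG n ω h.mem) := by
  have hq : Coh.IsQCoh (⨁ fun _ : Fin r => G.obj (op 0)) :=
    CohqA.HBiprod.isQCoh_biproduct _ fun _ => (hcoh 0).1
  refine mono_of_gam U hU hq (hcoh n).1 _ fun x hx => ?_
  obtain ⟨N, hN, hN'⟩ := exists_fg_isTorsOn U hU (G.obj (op n)) (hcoh n)
  have hiso := isIso_subToMod U hU (hcoh n).1 N hN'
  have hNf : Module.Finite A N := Module.Finite.iff_fg.2 hN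
  have hNp : Module.FinitePresentation A N := Module.finitePresentation_of_finite A N
  have hB : Module.FinitePresentation A (A ⧸ J ^ (n + 1)) := Module.finitePresentation_of_finite A _
  obtain ⟨g, hxg, hgU, κ, hfr⟩ := FormalB.LocFreeTheta.exists_isFreeUpTo U J (n + 1) _ hfree
    (asIso (subToMod U N)) x hx
  refine ⟨g, hxg, fun s hs => ?_⟩
  have hepi := epi_t0 hG n
  have hs' := (gam_sum U (fun i => m hG n (ω i) (h.mem i)) s).symm.trans hs
  obtain ⟨k, hk⟩ := exists_pow_smul_eq_zero J h ((Gam U).map (t0 G n)).hom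
    (fun i => ((Gam U).map (m hG n (ω i) (h.mem i))).hom) (fun i y => gam_m U hG n (ω i) (h.mem i) y)
    (fun a ha x => FormalB.PuncSys.smul_eq_zero_of_killedBy U (J := J)
      (by simpa using hG.killed 0) ha x) N g
    (fun t => by
      obtain ⟨l, hl⟩ := hN' g hgU (Submodule.Quotient.mk t)
      rw [← Submodule.Quotient.mk_smul, Submodule.Quotient.mk_eq_zero] at hl
      exact ⟨l, hl⟩)
    (fun s => exists_lift_of_epi U hU (hcoh n).1 (hcoh 0).1 (t0 G n) g hgU s) hfr
    (fun i => (Gam U).map (biproduct.π (fun _ : Fin r => G.obj (op 0)) i) s) hs'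
  exact ⟨k, gam_zero U s (g ^ k) hk⟩

/-- **The cohomology of the graded pieces is generated in degree `0`.** -/
theorem gen [IsNoetherianRing A] (hU : IsCompact (U : Set (Spec (CommRingCat.of A))))
    (hgr : ∀ n : ℕ, Module.Free (A ⧸ J) (↥(J ^ n) ⧸ (J • (⊤ : Submodule A ↥(J ^ n)))))
    (hG : IsFormal J G) (hcoh : ∀ n : ℕ, Coh.IsCoh (G.obj (op n)))
    (hfree : ∀ n : ℕ, Formal2.IsFinLocFreeMod J (n + 1) (G.obj (op n))) (j : ℕ) : Gen hG j := by
  refine gen_of_mono hG (fun n => ?_) j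
  obtain ⟨r, ω, hω⟩ := exists_basis J (n + 1) (hgr (n + 1))
  exact ⟨r, ω, hω, mono_phi U hU hG hcoh (n + 1) (hfree (n + 1)) hω⟩

end Open

end Groth.Agent.Sga2lef.H100.GrFree
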