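import Groth.Agent.Sga2.PuncTriv
import Groth.Agent.Sga2.LefQcoh
import Groth.Agent.Divis.IdealComap
import Mathlib.AlgebraicGeometry.IdealSheaf.Functorial

/-!
# The punctured spectrum of `A` and the thickenings `V(J^n)` when `gr_J(A)` is free over `A/J`

* `isPullback_inc`, `ker_inc`, `exists_subschemeIso`: the closed subscheme `V(J) ∩ P(A)` is `P(A/J)`.
* `ker_specMk_pow`: the `n`-th power of the ideal sheaf of `V(J)` on `Spec A` is the one of `V(J^n)`.
* `depth_quot_pow`: `A/J^n` has depth at least three.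
* `gammaComplete`: `Γ(P(A), O) → lim Γ(V(J^(n+1)), O)` is bijective when `A` is `J`-adically complete.
* `homToFormalBijective`: the comparison `Hom(D, O) → lim Hom(D, O/J^(n+1))` for `D` quasi-coherent.
* `nonempty_iso_of_pullback`: an invertible module on `P(A)` with trivial restriction to `P(A/J)` is trivial.
-/

set_option autoImplicit false
universe u

open CategoryTheory CategoryTheory.Limits AlgebraicGeometry Opposite TopologicalSpace

namespace Groth.Agent.Sga2lef.H100.GrPunct

open Groth.Agent.Sga2.PuncSections Groth.Agent.Sga2.PuncRed Groth.Agent.Sga2.GrReg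
open Groth.Agent.Sga2.GrLoc Groth.Agent.Sga2.GrKey Groth.Agent.Fdesc.LocGen

section Ker

variable (A : Type u) [CommRing A] (J : Ideal A)

/-- `Spec (A/J) ⟶ Spec A`. -/
noncomputable abbrev specMk : Spec (CommRingCat.of (A ⧸ J)) ⟶ Spec (CommRingCat.of A) :=
  Spec.map (CommRingCat.ofHom (Ideal.Quotient.mk J))

instance : IsClosedImmersion (specMk A J) :=
  IsClosedImmersion.spec_of_surjective _ Ideal.Quotient.mk_surjective

theorem ker_specMk_ideal_top : (specMk A J).ker.ideal ⟨⊤, isAffineOpen_top _⟩ =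
    J.map (Scheme.ΓSpecIso (CommRingCat.of A)).inv.hom := by
  rw [Scheme.Hom.ker_apply]
  ext y
  obtain ⟨a, rfl⟩ : ∃ a, (Scheme.ΓSpecIso (CommRingCat.of A)).inv.hom a = y :=
    ⟨(Scheme.ΓSpecIso (CommRingCat.of A)).hom y,
      congr($((Scheme.ΓSpecIso (CommRingCat.of A)).hom_inv_id) y)⟩
  have h2 : (specMk A J).app ⊤ ((Scheme.ΓSpecIso (CommRingCat.of A)).inv.hom a) =
      (Scheme.ΓSpecIso (CommRingCat.of (A ⧸ J))).inv.hom (Ideal.Quotient.mk J a) :=
    congr($(Scheme.ΓSpecIso_inv_naturality (CommRingCat.ofHom (Ideal.Quotient.mk J))) a).symm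
  have hinj : ∀ (R : Type u) [CommRing R],
      Function.Injective (Scheme.ΓSpecIso (CommRingCat.of R)).inv.hom := fun R _ =>
    (ConcreteCategory.bijective_of_isIso (Scheme.ΓSpecIso (CommRingCat.of R)).inv).1
  have hsurj : Function.Surjective (Scheme.ΓSpecIso (CommRingCat.of A)).inv.hom :=
    (ConcreteCategory.bijective_of_isIso (Scheme.ΓSpecIso (CommRingCat.of A)).inv).2
  rw [RingHom.mem_ker, Ideal.mem_map_iff_of_surjective _ hsurj]
  constructor
  · intro h
    refine ⟨a, ?_, rfl⟩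
    rw [← Ideal.Quotient.eq_zero_iff_mem]
    exact hinj _ ((h2.symm.trans h).trans (map_zero _).symm)
  · rintro ⟨b, hb, hab⟩
    have hba : b = a := hinj _ hab
    subst hba
    refine h2.trans ?_
    rw [Ideal.Quotient.eq_zero_iff_mem.2 hb, map_zero]
    rfl

/-- powers of the ideal sheaf of `V(J)`. -/
theorem ker_specMk_pow (n : ℕ) : (specMk A J).ker ^ n = (specMk A (J ^ n)).ker := by
  apply Scheme.IdealSheafData.ext_of_isAffine
  rw [Scheme.IdealSheafData.ideal_pow, Pi.pow_apply, ker_specMk_ideal_top, ker_specMk_ideal_top,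
    Ideal.map_pow]

end Ker

section Inc

variable (A : Type u) [CommRing A] [IsLocalRing A] (J : Ideal A) [IsLocalRing (A ⧸ J)]

theorem preimage_punctured : (specMk A J) ⁻¹ᵁ (FEt.puncturedSpec A) = FEt.puncturedSpec (A ⧸ J) := by
  ext q
  constructor
  · intro hq hq'
    apply hq
    have h1 : q = IsLocalRing.closedPoint (A ⧸ J) := hq'
    subst h1
    have : IsLocalHom (Ideal.Quotient.mk J) := Ideal.Quotient.mk_surjective.isLocalHom
    exact IsLocalRing.comap_closedPoint (Ideal.Quotient.mk J)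
  · intro hq
    exact comap_mem_punctured A J q hq

theorem isPullback_inc : IsPullback (inc A J) (FEt.puncturedSpec (A ⧸ J)).ι (FEt.puncturedSpec A).ι
    (specMk A J) := by
  refine IsOpenImmersion.isPullback _ _ _ _ (inc_ι A J).symm ?_
  rw [Scheme.Opens.opensRange_ι, Scheme.Opens.opensRange_ι]
  exact preimage_punctured A J

instance isClosedImmersion_inc : IsClosedImmersion (inc A J) :=
  MorphismProperty.of_isPullback (P := @IsClosedImmersion) (isPullback_inc A J).flip inferInstance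

theorem ker_inc : (specMk A J).ker.comap (FEt.puncturedSpec A).ι = (inc A J).ker := by
  rw [← Scheme.IdealSheafData.ker_fst_of_isClosedImmersion (specMk A J) (FEt.puncturedSpec A).ι]
  rw [← (isPullback_inc A J).isoPullback_hom_fst, Scheme.Hom.ker_comp_of_isIso]

/-- the closed subscheme with the ideal sheaf of `P(A/J)` is `P(A/J)`. -/
theorem exists_subschemeIso (K : (P A).IdealSheafData) (hK : K = (inc A J).ker) :
    ∃ e : P (A ⧸ J) ≅ K.subscheme, e.hom ≫ K.subschemeι = inc A J := by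
  subst hK
  exact ⟨asIso (inc A J).toImage, (inc A J).toImage_imageι⟩

end Inc

section Pow

variable (A : Type u) [CommRing A] [IsLocalRing A] {J : Ideal A} (hJ : J ≠ ⊤)

include hJ in
theorem isLocalRing_quot_pow (n : ℕ) : IsLocalRing (A ⧸ J ^ (n + 1)) := by
  have h1 : J ^ (n + 1) ≠ ⊤ := fun h => hJ (top_le_iff.1 (h.ge.trans (Ideal.pow_le_self n.succ_ne_zero)))
  have : Nontrivial (A ⧸ J ^ (n + 1)) := Ideal.Quotient.nontrivial_iff.2 h1
  exact IsLocalRing.of_surjective' (Ideal.Quotient.mk _) Ideal.Quotient.mk_surjective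

theorem comap_pow_eq (n : ℕ) [IsLocalRing (A ⧸ J ^ n)] :
    ((specMk A J).ker.comap (FEt.puncturedSpec A).ι) ^ n = (inc A (J ^ n)).ker := by
  rw [← Groth.Agent.Divis.IdealComap.comap_pow, ker_specMk_pow, ker_inc]

theorem depth_quot_pow [IsNoetherianRing A] [IsLocalRing (A ⧸ J)]
    (hd : (3 : ℕ∞) ≤ LocCoh.depth (A ⧸ J) (A ⧸ J))
    (hgr : ∀ n : ℕ, Module.Free (A ⧸ J) (↥(J ^ n) ⧸ (J • (⊤ : Submodule A ↥(J ^ n))))) (n : ℕ)
    [IsLocalRing (A ⧸ J ^ n)] :
    (3 : ℕ∞) ≤ LocCoh.depth (A ⧸ J ^ n) (A ⧸ J ^ n) := by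
  obtain ⟨x, hx, y, hy, z, hz, h⟩ := exists_reg3_quot hd
  have h1 := reg3_pow h hgr n
  have : IsLocalHom (Ideal.Quotient.mk (J ^ n)) := Ideal.Quotient.mk_surjective.isLocalHom
  have hm : ∀ a ∈ IsLocalRing.maximalIdeal A,
      Ideal.Quotient.mk (J ^ n) a ∈ IsLocalRing.maximalIdeal (A ⧸ J ^ n) := by
    intro a ha
    rw [IsLocalRing.mem_maximalIdeal] at ha ⊢
    exact fun hu => ha (isUnit_of_map_unit _ _ hu)
  exact depth_ge_three (hm x hx) (hm y hy) (hm z hz) ⟨h1.h1, h1.h2, h1.h3⟩

end Pow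

section Main

lemma inclusion_appTop {U : Scheme.{u}} {I J : U.IdealSheafData} (h : I ≤ J) (b : Γ(U, ⊤)) :
    (Scheme.IdealSheafData.inclusion h).appTop (I.subschemeι.appTop b) = J.subschemeι.appTop b := by
  have h1 := Scheme.IdealSheafData.inclusion_subschemeι h
  have h2 := congr($(congrArg Scheme.Hom.appTop h1) b)
  rw [← h2]
  rfl

variable (A : Type u) [CommRing A] [IsLocalRing A] [IsNoetherianRing A] {J : Ideal A} (hJ : J ≠ ⊤)
  [IsLocalRing (A ⧸ J)] (hd : (3 : ℕ∞) ≤ LocCoh.depth (A ⧸ J) (A ⧸ J))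
  (hgr : ∀ n : ℕ, Module.Free (A ⧸ J) (↥(J ^ n) ⧸ (J • (⊤ : Submodule A ↥(J ^ n)))))

include hJ hd hgr in
/-- functions on the thickening. -/
theorem exists_thick (n : ℕ) :
    (∀ a : A, ((((specMk A J).ker.comap (FEt.puncturedSpec A).ι) ^ (n + 1)).subschemeι.appTop
      (rho A a) = 0 ↔ a ∈ J ^ (n + 1))) ∧
    ∀ y : Γ((((specMk A J).ker.comap (FEt.puncturedSpec A).ι) ^ (n + 1)).subscheme, ⊤), ∃ a : A,
      (((specMk A J).ker.comap (FEt.puncturedSpec A).ι) ^ (n + 1)).subschemeι.appTop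
        (rho A a) = y := by
  have := isLocalRing_quot_pow A hJ n
  obtain ⟨e, he⟩ := exists_subschemeIso A (J ^ (n + 1)) _ (comap_pow_eq A (n + 1))
  have hb := rho_bijective (A ⧸ J ^ (n + 1))
    (le_trans (by norm_num) (depth_quot_pow A hd hgr (n + 1)))
  have hiso : IsIso (e.hom.app ⊤) := inferInstance
  have hbij : Function.Bijective e.hom.appTop := ConcreteCategory.bijective_of_isIso (e.hom.app ⊤)
  have key : ∀ a : A, e.hom.appTop
      ((((specMk A J).ker.comap (FEt.puncturedSpec A).ι) ^ (n + 1)).subschemeι.appTop (rho A a)) =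
      rho (A ⧸ J ^ (n + 1)) (Ideal.Quotient.mk _ a) := by
    intro a
    rw [← inc_appTop_rho]
    have := congr($(congrArg Scheme.Hom.appTop he) (rho A a))
    exact this
  constructor
  · intro a
    rw [← Ideal.Quotient.eq_zero_iff_mem, ← hb.1.eq_iff, ← key, map_zero, ← map_zero e.hom.appTop.hom]
    exact hbij.1.eq_iff.symm
  · intro y
    obtain ⟨b, hb'⟩ := hb.2 (e.hom.appTop y)
    obtain ⟨a, rfl⟩ := Ideal.Quotient.mk_surjective b
    exact ⟨a, hbij.1 ((key a).trans hb')⟩

include hJ hd hgr in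
/-- `Γ(P(A), O) = A = lim A/J^(n+1) = lim Γ(V(J^(n+1)), O)`. -/
theorem gammaComplete [IsAdicComplete J A] :
    Groth.Agent.Sga2.LefBasic.GammaComplete
      ((specMk A J).ker.comap (FEt.puncturedSpec A).ι) := by
  have hb := rho_bijective A (le_trans (by norm_num) (depth_ge_three_of_quot hJ hd hgr))
  set K := (specMk A J).ker.comap (FEt.puncturedSpec A).ι with hK
  have hth := exists_thick A hJ hd hgr
  rw [← hK] at hth
  constructor
  · intro s t hst
    obtain ⟨a, rfl⟩ := hb.2 s
    obtain ⟨b, rfl⟩ := hb.2 t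
    congr 1
    rw [← sub_eq_zero]
    refine IsHausdorff.haus' (I := J) (a - b) fun n => ?_
    rw [SModEq.zero, smul_eq_mul, Ideal.mul_top]
    rcases n with _ | n
    · simp
    · rw [← (hth n).1, map_sub, map_sub, hst n, sub_self]
  · intro y hy
    choose a ha using fun n => (hth n).2 (y n)
    have h1 : ∀ n, a (n + 1) - a n ∈ J ^ (n + 1) := by
      intro n
      rw [← (hth n).1, map_sub, map_sub, ha n, ← hy n, ← ha (n + 1),
        inclusion_appTop, sub_self]
    have h2 : ∀ m n, m ≤ n → a n - a m ∈ J ^ (m + 1) := by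
      intro m n hmn
      induction n, hmn using Nat.le_induction with
      | base => simp
      | succ n hmn ih =>
        have h3 : a (n + 1) - a m = (a (n + 1) - a n) + (a n - a m) := by ring
        rw [h3]
        exact Ideal.add_mem _ (Ideal.pow_le_pow_right (by omega) (h1 n)) ih
    obtain ⟨L, hL⟩ := IsPrecomplete.prec' (I := J) (M := A) a (by
      intro m n hmn
      rw [SModEq.comm, SModEq.sub_mem, smul_eq_mul, Ideal.mul_top]
      exact Ideal.pow_le_pow_right (by omega) (h2 m n hmn))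
    refine ⟨rho A L, fun n => ?_⟩
    rw [← ha n, ← sub_eq_zero, ← map_sub, ← map_sub, (hth n).1]
    have h3 := hL (n + 1)
    rw [SModEq.comm, SModEq.sub_mem, smul_eq_mul, Ideal.mul_top] at h3
    have h4 : L - a n = (L - a (n + 1)) + (a (n + 1) - a n) := by ring
    rw [h4]
    exact Ideal.add_mem _ h3 (h1 n)

include hJ hd hgr in
/-- **Comparison theorem**: `Hom(D, O) → lim Hom(D, O/J^(n+1))` is bijective on the punctured spectrum, for
every quasi-coherent `D`. -/
theorem homToFormalBijective [IsAdicComplete J A] (D : (P A).Modules) (hD : Coh.IsQCoh D) :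
    Lef.HomToFormalBijective ((specMk A J).ker.comap (FEt.puncturedSpec A).ι) D := by
  have := compactSpace_P A
  exact Groth.Agent.Sga2.LefQcoh.bijective_of_isQCoh (FEt.puncturedSpec A).ι D hD
    (gammaComplete A hJ hd hgr)

include hJ hd hgr in
/-- an invertible module on `P(A)` with trivial pullback to `P(A/J)` is trivial. -/
theorem nonempty_iso_of_pullback (L : (P A).Modules) (hL : PicF.IsInvertible L)
    (h0 : Nonempty ((Scheme.Modules.pullback (inc A J)).obj L ≅ Coh.structureModule _)) :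
    Nonempty (L ≅ Coh.structureModule _) := by
  have := compactSpace_P A
  obtain ⟨x, hx, y, hy, z, hz, h⟩ := exists_reg3_quot hd
  obtain ⟨e₀⟩ := h0
  have hg₀ : IsGen (e₀.inv.app ⊤ (one ⊤)) := (isGen_one ⊤).app e₀.inv
  obtain ⟨π, hπ⟩ := Groth.Agent.Sga2.PuncTriv.exists_coeff A J (le_trans (by norm_num) hd) L _ hg₀
  obtain ⟨ι, _, g, e, hgm, hcov, he⟩ := exists_cover A L hL
  obtain ⟨φ, -, hφ⟩ := exists_iso_off' hJ h hgr g (mem_radical_of_cover A g hcov x hx)
    (mem_radical_of_cover A g hcov y hy) (mem_radical_of_cover A g hcov z hz)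
    (fun i => SecA (rho A) L ((P A).basicOpen (rho A (g i))))
    (fun i => resL (rho A) L le_top) (fun i => isLocalizedModule_resL (rho A) L hL (g i))
    (fun i => genL A L (e i))
    (fun i => isLocalizedModule_gen A (hgm i) L rfl (e i) (he i) _ (toSec_genL A L (e i)))
    (LinearMap.pi fun _ : Fin 1 => π)
    (fun i => Groth.Agent.Sga2.PuncTriv.isoModJ_coeff A J L hL _ hg₀ π hπ (g i) (hgm i) (e i) (he i))
  obtain ⟨s, hs⟩ := Groth.Agent.Sga2.PuncTriv.exists_isGen_of_iso_off A L g e hcov he hL φ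
    (fun i => (hφ i).1) (fun i => (hφ i).2)
  have : IsIso (homOf s) := by
    rw [isIso_iff_isGen, sec_homOf, res_refl]
    exact hs
  exact ⟨(asIso (homOf s)).symm⟩

end Main

end Groth.Agent.Sga2lef.H100.GrPunct
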