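import Mathlib.RingTheory.AdicCompletion.Basic
import Mathlib.RingTheory.AdicCompletion.Noetherian
import Mathlib.RingTheory.Finiteness.Basic
import Groth.Agent.FormalA.AdicFin
import Groth.Agent.FormalB.TowerAlg
import Groth.Agent.FormalB.GrAlg

set_option autoImplicit false

/-!
# Algebra of the towers `H^0(U, G_n)`, `H^1(U, ker (G_n → G_{n-1}))` for a formal system along an ideal `J`

`P n = H^0(G_n)`, `Q (n+1) = H^1(ker (G_{n+1} → G_n))`, `Q 0 = H^1(G_0)`, `a i` generators of `J`, `μ i` is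
multiplication by `a i` as a map `G_n → G_{n+1}`, `ν i` the induced maps on the kernels, `δ` the
connecting maps.  When `ker (G_{n+1} → G_n) = J^{n+1}/J^{n+2} ⊗ G_0` the groups `H^i(ker)` are generated
in degree `0` under the operators, and the graded Hilbert basis theorem gives:

* `finite_lim`: `lim H^0(G_n)` is finite over `A` (`A` is `J`-precomplete, Noetherian);
* `ker_le`: an element of the limit vanishing in `G_m` with `m` large lies in `J^n · lim`;
* `exists_pow_le`: a power of `𝔞` multiplies `H^0(G_n)` into the image of the limit.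
-/

namespace Groth.Agent.Sga2lef.H100.GrTower

open Submodule Groth.Agent.FormalB.TowerAlg

section Comp

variable {A : Type*} [CommRing A] {P : ℕ → Type*} [∀ n, AddCommGroup (P n)] [∀ n, Module A (P n)]
  (π : ∀ n, P (n + 1) →ₗ[A] P n)

/-- The submodule of families compatible up to position `L`. -/
def comp (L : ℕ) : Submodule A (∀ n, P n) where
  carrier := {x | ∀ k, k < L → π k (x (k + 1)) = x k}
  zero_mem' := by intro k _; simp
  add_mem' := by intro x y hx hy k hk; simp [hx k hk, hy k hk]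
  smul_mem' := by intro a x hx k hk; simp [hx k hk]

theorem mem_comp (L : ℕ) (x : ∀ n, P n) : x ∈ comp π L ↔ ∀ k, k < L → π k (x (k + 1)) = x k := Iff.rfl

theorem exists_comp (L : ℕ) (y : P L) : ∃ z ∈ comp π L, z L = y := by
  classical
  induction L with
  | zero => exact ⟨Function.update 0 0 y, by intro k hk; omega, by simp⟩
  | succ L ih =>
    obtain ⟨z, hz', hz⟩ := ih (π L y)
    refine ⟨Function.update z (L + 1) y, ?_, by simp⟩
    intro k hk
    rcases Nat.lt_succ_iff_lt_or_eq.1 hk with h | rfl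
    · rw [Function.update_of_ne (by omega), Function.update_of_ne (by omega), hz' k h]
    · rw [Function.update_self, Function.update_of_ne (by omega), hz]

variable {π}

theorem eq_of_comp {L : ℕ} {x y : ∀ n, P n} (hx : x ∈ comp π L) (hy : y ∈ comp π L) (h : x L = y L)
    (k : ℕ) (hk : k ≤ L) : x k = y k := by
  induction L with
  | zero => obtain rfl : k = 0 := by omega
            exact h
  | succ L ih =>
    rcases Nat.lt_or_ge k (L + 1) with h' | h'
    · refine ih (fun k hk => hx k (by omega)) (fun k hk => hy k (by omega)) ?_ (by omega)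
      rw [← hx L (by omega), ← hy L (by omega), h]
    · obtain rfl : k = L + 1 := by omega
      exact h

theorem comp_of_lim {x : ∀ n, P n} (hx : x ∈ lim P π) (L : ℕ) : x ∈ comp π L := fun k _ => hx k

theorem comp_mono {L L' : ℕ} (h : L ≤ L') {x : ∀ n, P n} (hx : x ∈ comp π L') : x ∈ comp π L :=
  fun k hk => hx k (by omega)

variable (π)

/-- Elements of `P L` whose images in `P k` vanish for `k < c`. -/
def W (L c : ℕ) : Submodule A (P L) :=
  (comp π L ⊓ {carrier := {z | ∀ k, k < c → k ≤ L → z k = 0}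
               zero_mem' := fun _ _ _ => rfl
               add_mem' := fun {x y} hx hy k h h' => by
                rw [Pi.add_apply, hx k h h', hy k h h', add_zero]
               smul_mem' := fun a x hx k h h' => by
                rw [Pi.smul_apply, hx k h h', smul_zero] }).map (LinearMap.proj L)

theorem mem_W (L c : ℕ) (t : P L) : t ∈ W π L c ↔
    ∃ z ∈ comp π L, (∀ k, k < c → k ≤ L → z k = 0) ∧ z L = t := by
  constructor
  · rintro ⟨z, ⟨h1, h2⟩, h3⟩
    exact ⟨z, h1, h2, h3⟩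
  · rintro ⟨z, h1, h2, h3⟩
    exact ⟨z, ⟨h1, h2⟩, h3⟩

theorem W_zero (L : ℕ) : W π L 0 = ⊤ := by
  rw [eq_top_iff]
  intro t _
  obtain ⟨z, h1, h2⟩ := exists_comp π L t
  exact (mem_W π L 0 t).2 ⟨z, h1, fun k hk => absurd hk (by omega), h2⟩

end Comp

/-- The data of the towers. -/
structure Tower (A : Type*) [CommRing A] {ι : Type*} (a : ι → A)
    (P : ℕ → Type*) [∀ n, AddCommGroup (P n)] [∀ n, Module A (P n)]
    (Q : ℕ → Type*) [∀ n, AddCommGroup (Q n)] [∀ n, Module A (Q n)] where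
  π : ∀ n, P (n + 1) →ₗ[A] P n
  μ : ∀ (_ : ι) n, P n →ₗ[A] P (n + 1)
  ν : ∀ (_ : ι) n, Q n →ₗ[A] Q (n + 1)
  δ : ∀ n, P n →ₗ[A] Q (n + 1)
  kill : ∀ i (x : P 0), a i • x = 0
  μπ : ∀ i n x, μ i n (π n x) = a i • x
  πμ : ∀ i n x, π n (μ i n x) = a i • x
  μ_comm : ∀ i j n x, μ i (n + 1) (μ j n x) = μ j (n + 1) (μ i n x)
  ν_comm : ∀ i j n x, ν i (n + 1) (ν j n x) = ν j (n + 1) (ν i n x)
  δμ : ∀ i n x, δ (n + 1) (μ i n x) = ν i (n + 1) (δ n x)
  ex : ∀ n x, δ n x = 0 → ∃ y, π n y = x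
  genP0 : ∀ x : P 1, π 0 x = 0 → x ∈ ⨆ i, LinearMap.range (μ i 0)
  genP : ∀ n (x : P (n + 2)), π (n + 1) x = 0 → x ∈ ⨆ i, (LinearMap.ker (π n)).map (μ i (n + 1))
  genQ : ∀ n, (⊤ : Submodule A (Q (n + 1))) ≤ ⨆ i, LinearMap.range (ν i n)

namespace Tower

variable {A : Type*} [CommRing A] {ι : Type*} {a : ι → A}
    {P : ℕ → Type*} [∀ n, AddCommGroup (P n)] [∀ n, Module A (P n)]
    {Q : ℕ → Type*} [∀ n, AddCommGroup (Q n)] [∀ n, Module A (Q n)] (T : Tower A a P Q)

/-- `lim H^0(G_n)`. -/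
abbrev M : Submodule A (∀ n, P n) := lim P T.π

/-! ### The Mittag-Leffler condition -/

theorem map_W (i : ι) (L c : ℕ) : (W T.π L c).map (T.μ i L) ≤ W T.π (L + 1) (c + 1) := by
  rintro _ ⟨t, ht, rfl⟩
  obtain ⟨z, h1, h2, h3⟩ := (mem_W T.π L c t).1 ht
  rw [mem_W]
  let z' : ∀ k, P k := fun k => Nat.casesOn k 0 (fun k => T.μ i k (z k))
  have hz0 : z' 0 = 0 := rfl
  have hzs : ∀ k, z' (k + 1) = T.μ i k (z k) := fun k => rfl
  refine ⟨z', ?_, ?_, ?_⟩
  · intro k hk
    cases k with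
    | zero => rw [hzs, hz0, T.πμ, T.kill]
    | succ k => rw [hzs, hzs, T.πμ, ← T.μπ, h1 k (by omega)]
  · intro k hk hk'
    cases k with
    | zero => exact hz0
    | succ k => rw [hzs, h2 k (by omega) (by omega), map_zero]
  · rw [hzs, h3]

/-- the images of the connecting maps. -/
def B : ∀ n, Submodule A (Q n)
  | 0 => ⊥
  | n + 1 => LinearMap.range (T.δ n)

theorem map_B (i : ι) (n : ℕ) : (T.B n).map (T.ν i n) ≤ T.B (n + 1) := by
  cases n with
  | zero => rw [B, Submodule.map_bot]; exact bot_le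
  | succ n =>
    rintro _ ⟨_, ⟨x, rfl⟩, rfl⟩
    exact ⟨T.μ i n x, T.δμ i n x⟩

include T in
theorem finite_Q [Finite ι] (h0 : Module.Finite A (Q 0)) (n : ℕ) : Module.Finite A (Q n) := by
  induction n with
  | zero => exact h0
  | succ n ih =>
    refine ⟨?_⟩
    have h1 : (⊤ : Submodule A (Q (n + 1))) = ⨆ i, LinearMap.range (T.ν i n) :=
      le_antisymm (T.genQ n) le_top
    rw [h1]
    exact Submodule.fg_iSup _ fun i => Module.Finite.iff_fg.1 inferInstance

/-- Mittag-Leffler, first step. -/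
theorem range_δ_le (n₁ : ℕ) (hn : 1 ≤ n₁)
    (h : ∀ n, n₁ ≤ n → T.B (n + 1) ≤ ⨆ i, (T.B n).map (T.ν i n)) (c : ℕ) :
    ∀ L, n₁ + c ≤ L + 1 → LinearMap.range (T.δ L) ≤ (W T.π L c).map (T.δ L) := by
  induction c with
  | zero =>
    intro L _
    rw [W_zero, Submodule.map_top]
  | succ c ih =>
    intro L hL
    obtain ⟨L, rfl⟩ : ∃ L', L = L' + 1 := ⟨L - 1, by omega⟩
    refine (h (L + 1) (by omega)).trans (iSup_le fun i => ?_)
    rintro _ ⟨x, hx, rfl⟩
    obtain ⟨t, ht, rfl⟩ := ih L (by omega) hx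
    refine ⟨T.μ i L t, T.map_W i L c ⟨t, ht, rfl⟩, T.δμ i L t⟩

theorem exists_extend (n₁ : ℕ) (hn : 1 ≤ n₁)
    (h : ∀ n, n₁ ≤ n → T.B (n + 1) ≤ ⨆ i, (T.B n).map (T.ν i n)) (L : ℕ) (z : ∀ n, P n)
    (hz : z ∈ comp T.π L) : ∃ w ∈ comp T.π (L + 1), ∀ k, k + n₁ ≤ L → w k = z k := by
  rcases Nat.lt_or_ge (L + 1) n₁ with h' | h'
  · exact ⟨0, Submodule.zero_mem _, fun k hk => by omega⟩
  obtain ⟨t, ht, htz⟩ := T.range_δ_le n₁ hn h (L + 1 - n₁) L (by omega) ⟨z L, rfl⟩
  obtain ⟨y, h1, h2, h3⟩ := (mem_W T.π L _ t).1 ht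
  obtain ⟨s, hs⟩ := T.ex L (z L - t) (by rw [map_sub, htz, sub_self])
  obtain ⟨w, hw, hws⟩ := exists_comp T.π (L + 1) s
  refine ⟨w, hw, fun k hk => ?_⟩
  have h4 : w L = (z - y) L := by
    rw [← hw L (by omega), hws, hs, Pi.sub_apply, h3]
  rw [eq_of_comp (comp_mono (Nat.le_succ L) hw) (sub_mem hz h1) h4 k (by omega), Pi.sub_apply,
    h2 k (by omega) (by omega), sub_zero]

theorem exists_lift (n₁ : ℕ) (hn : 1 ≤ n₁)
    (h : ∀ n, n₁ ≤ n → T.B (n + 1) ≤ ⨆ i, (T.B n).map (T.ν i n)) (L : ℕ) (z : ∀ n, P n)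
    (hz : z ∈ comp T.π L) : ∃ w ∈ T.M, ∀ k, k + n₁ ≤ L → w k = z k := by
  classical
  choose! nx hnx1 hnx2 using T.exists_extend n₁ hn h
  let Z : ∀ j, {w : ∀ n, P n // w ∈ comp T.π (L + j)} := fun j =>
    Nat.rec ⟨z, hz⟩ (fun j w => ⟨nx (L + j) w.1, hnx1 (L + j) w.1 w.2⟩) j
  have hZ : ∀ j k, k + n₁ ≤ L + j → (Z (j + 1)).1 k = (Z j).1 k := fun j =>
    hnx2 (L + j) (Z j).1 (Z j).2
  have hZ' : ∀ j j' k, j ≤ j' → k + n₁ ≤ L + j → (Z j').1 k = (Z j).1 k := by
    intro j j' k hj hk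
    induction j', hj using Nat.le_induction with
    | base => rfl
    | succ j' hj ih => rw [hZ j' k (by omega), ih]
  refine ⟨fun k => (Z (k + n₁)).1 k, fun k => ?_, fun k hk => ?_⟩
  · change T.π k ((Z (k + 1 + n₁)).1 (k + 1)) = (Z (k + n₁)).1 k
    rw [(Z (k + 1 + n₁)).2 k (by omega)]
    exact hZ' (k + n₁) (k + 1 + n₁) k (by omega) (by omega)
  · exact hZ' 0 (k + n₁) k (by omega) (by omega)

theorem exists_stable [IsNoetherianRing A] [Finite ι] (h0 : Module.Finite A (Q 0)) :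
    ∃ n₁ : ℕ, 1 ≤ n₁ ∧ ∀ n, n₁ ≤ n → T.B (n + 1) ≤ ⨆ i, (T.B n).map (T.ν i n) := by
  obtain ⟨n₁, h⟩ := FormalB.GrAlg.exists_generated_submodule T.ν T.ν_comm (T.finite_Q h0)
    ⟨0, fun n _ => T.genQ n⟩ T.B T.map_B
  exact ⟨n₁ + 1, by omega, fun n hn => h n (by omega)⟩

/-! ### Finiteness of the limit -/

/-- the kernels of the transition maps. -/
def Kp : ∀ n, Submodule A (P n)
  | 0 => ⊤
  | n + 1 => LinearMap.ker (T.π n)

theorem map_Kp (i : ι) (n : ℕ) (x : P n) (hx : x ∈ T.Kp n) : T.μ i n x ∈ T.Kp (n + 1) := by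
  change T.π n (T.μ i n x) = 0
  rw [T.πμ]
  cases n with
  | zero => exact T.kill i x
  | succ n =>
    have hx' : T.π n x = 0 := hx
    rw [← T.μπ, hx', map_zero]

theorem Kp_le (n : ℕ) : T.Kp (n + 1) ≤ ⨆ i, (T.Kp n).map (T.μ i n) := by
  intro x hx
  cases n with
  | zero =>
    have := T.genP0 x hx
    simpa only [Kp, Submodule.map_top] using this
  | succ n => exact T.genP n x hx

theorem fg_Kp [Finite ι] (h0 : Module.Finite A (P 0)) (n : ℕ) : (T.Kp n).FG := by
  induction n with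
  | zero => exact h0.fg_top
  | succ n ih =>
    have h1 : T.Kp (n + 1) = ⨆ i, (T.Kp n).map (T.μ i n) :=
      le_antisymm (T.Kp_le n) (iSup_le fun i => by
        rintro _ ⟨x, hx, rfl⟩
        exact T.map_Kp i n x hx)
    rw [h1]
    exact Submodule.fg_iSup _ fun i => ih.map _

include T in
theorem finite_P [IsNoetherianRing A] [Finite ι] (h0 : Module.Finite A (P 0)) (n : ℕ) :
    Module.Finite A (P n) := by
  induction n with
  | zero => exact h0
  | succ n h1 =>
    have h2 : (LinearMap.ker (T.π n)).FG := T.fg_Kp h0 (n + 1)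
    have h3 : (LinearMap.range (T.π n)).FG := IsNoetherian.noetherian _
    refine ⟨Submodule.fg_of_fg_map_of_fg_inf_ker (T.π n) ?_ ?_⟩
    · rw [Submodule.map_top]; exact h3
    · rw [top_inf_eq]; exact h2

/-- the filtration of the limit. -/
def F (n : ℕ) : Submodule A T.M where
  carrier := {x | ∀ k, k < n → x.1 k = 0}
  zero_mem' := fun _ _ => rfl
  add_mem' := fun {x y} hx hy k hk => by
    change x.1 k + y.1 k = 0
    rw [hx k hk, hy k hk, add_zero]
  smul_mem' := fun a x hx k hk => by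
    change a • x.1 k = 0
    rw [hx k hk, smul_zero]

theorem mem_F (n : ℕ) (x : T.M) : x ∈ T.F n ↔ ∀ k, k < n → x.1 k = 0 := Iff.rfl

theorem mem_F_succ (n : ℕ) (x : T.M) : x ∈ T.F (n + 1) ↔ x.1 n = 0 := by
  constructor
  · intro h
    exact h n (by omega)
  · intro h k hk
    exact zero_of_le T.π x.2 (by omega) h

theorem F_mono {m n : ℕ} (h : m ≤ n) : T.F n ≤ T.F m := fun _ hx k hk => hx k (by omega)

theorem smul_F (i : ι) (n : ℕ) (x : T.M) (hx : x ∈ T.F n) : a i • x ∈ T.F (n + 1) := by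
  intro k hk
  change a i • x.1 k = 0
  cases k with
  | zero => exact T.kill i _
  | succ k => rw [← T.μπ, x.2 k, hx k (by omega), map_zero]

theorem pow_smul_F (m n : ℕ) (c : A) (hc : c ∈ Ideal.span (Set.range a) ^ m) (x : T.M) (hx : x ∈ T.F n) :
    c • x ∈ T.F (n + m) := by
  induction m generalizing c with
  | zero => exact Submodule.smul_mem _ _ hx
  | succ m ih =>
    rw [pow_succ'] at hc
    refine Submodule.mul_induction_on hc ?_ ?_
    · intro b hb c hc
      rw [mul_smul]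
      have h1 := ih c hc
      refine Submodule.span_induction (p := fun b _ => b • c • x ∈ T.F (n + (m + 1))) ?_ ?_ ?_ ?_ hb
      · rintro _ ⟨i, rfl⟩
        exact T.smul_F i _ _ h1
      · rw [zero_smul]; exact Submodule.zero_mem _
      · intro b b' _ _ h h'
        rw [add_smul]; exact Submodule.add_mem _ h h'
      · intro s b _ h
        rw [smul_eq_mul, mul_smul]; exact Submodule.smul_mem _ _ h
    · intro b c hb hc
      rw [add_smul]; exact Submodule.add_mem _ hb hc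

/-- the leading terms. -/
def G (n : ℕ) : Submodule A (T.Kp n) :=
  ((T.F n).map ((LinearMap.proj n).comp T.M.subtype)).comap (T.Kp n).subtype

theorem proj_mem_Kp (n : ℕ) (x : T.M) (hx : x ∈ T.F n) : x.1 n ∈ T.Kp n := by
  cases n with
  | zero => trivial
  | succ n =>
    change T.π n (x.1 (n + 1)) = 0
    rw [x.2 n]
    exact hx n (by omega)

theorem exists_gen [IsNoetherianRing A] [Finite ι] (h0 : Module.Finite A (P 0)) :
    ∃ n₀ : ℕ, ∀ n, n₀ ≤ n → ∀ x ∈ T.F (n + 1), ∃ y : ι → T.M, (∀ i, y i ∈ T.F n) ∧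
      x - ∑ᶠ i, a i • y i ∈ T.F (n + 2) := by
  classical
  cases nonempty_fintype ι
  let x' : ι → ∀ n, T.Kp n →ₗ[A] T.Kp (n + 1) := fun i n =>
    (T.μ i n).restrict (p := T.Kp n) (q := T.Kp (n + 1)) (T.map_Kp i n)
  have hx' : ∀ i n (y : T.Kp n), (x' i n y).1 = T.μ i n y.1 := fun _ _ _ => rfl
  obtain ⟨n₀, h⟩ := FormalB.GrAlg.exists_generated_submodule x'
    (fun i j n m => Subtype.ext (T.μ_comm i j n m.1))
    (fun n => Module.Finite.iff_fg.2 (T.fg_Kp h0 n))
    ⟨0, fun n _ => by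
      intro y _
      have h1 := T.Kp_le n y.2
      rw [Submodule.mem_iSup_iff_exists_finsupp] at h1 ⊢
      obtain ⟨f, hf, hfy⟩ := h1
      choose g hg hgf using hf
      refine ⟨Finsupp.onFinset f.support (fun i => x' i n ⟨g i, hg i⟩) ?_, ?_, ?_⟩
      · intro i hi
        rw [Finsupp.mem_support_iff]
        intro h2
        apply hi
        apply Subtype.ext
        rw [hx', hgf, h2]
        rfl
      · intro i
        exact ⟨⟨g i, hg i⟩, rfl⟩
      · apply Subtype.ext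
        rw [Finsupp.sum_fintype _ _ (fun _ => rfl), ← hfy, Finsupp.sum_fintype _ _ (fun _ => rfl)]
        simp only [Finsupp.onFinset_apply, AddSubmonoidClass.coe_finsetSum, hx']
        exact Finset.sum_congr rfl fun i _ => hgf i⟩
    T.G (by
      rintro i n _ ⟨y, ⟨z, hz, hzy⟩, rfl⟩
      refine ⟨a i • z, T.smul_F i n z hz, ?_⟩
      change a i • z.1 (n + 1) = T.μ i n y.1
      rw [← T.μπ, z.2 n]
      exact congrArg _ hzy)
  refine ⟨n₀, fun n hn x hx => ?_⟩
  have h1 : (⟨x.1 (n + 1), T.proj_mem_Kp (n + 1) x hx⟩ : T.Kp (n + 1)) ∈ T.G (n + 1) :=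
    ⟨x, hx, rfl⟩
  have h2 := h n hn h1
  rw [Submodule.mem_iSup_iff_exists_finsupp] at h2
  obtain ⟨f, hf, hfx⟩ := h2
  choose g hg hgf using hf
  choose y hy hyg using hg
  refine ⟨y, hy, ?_⟩
  rw [mem_F_succ]
  rw [finsum_eq_sum_of_fintype]
  have h3 : x.1 (n + 1) = ∑ i, T.μ i n ((y i).1 n) := by
    have h4 := congrArg Subtype.val hfx
    rw [Finsupp.sum_fintype _ _ (fun _ => rfl)] at h4
    rw [← show _ = x.1 (n + 1) from h4, AddSubmonoidClass.coe_finsetSum]
    refine Finset.sum_congr rfl fun i _ => ?_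
    rw [← hgf, hx']
    exact congrArg _ (hyg i).symm
  have h5 : (∑ i, a i • y i : T.M).1 (n + 1) = ∑ i, a i • (y i).1 (n + 1) := by
    rw [AddSubmonoidClass.coe_finsetSum, Finset.sum_apply]
    rfl
  change x.1 (n + 1) - (∑ i, a i • y i : T.M).1 (n + 1) = 0
  rw [h5, h3, sub_eq_zero]
  refine Finset.sum_congr rfl fun i _ => ?_
  rw [← T.μπ, (y i).2 n]

/-- approximation of elements of the filtration by combinations of a fixed finite family. -/
theorem approx [Finite ι] (n₀ : ℕ)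
    (h : ∀ n, n₀ ≤ n → ∀ x ∈ T.F (n + 1), ∃ y : ι → T.M, (∀ i, y i ∈ T.F n) ∧
      x - ∑ᶠ i, a i • y i ∈ T.F (n + 2)) {κ : Type*} [Fintype κ] (s : κ → T.M)
    (hs : ∀ x ∈ T.F n₀, ∃ c : κ → A, x - ∑ k, c k • s k ∈ T.F (n₀ + 1)) (j : ℕ) :
    ∀ x ∈ T.F (n₀ + j), ∃ c : κ → A, (∀ k, c k ∈ Ideal.span (Set.range a) ^ j) ∧
      x - ∑ k, c k • s k ∈ T.F (n₀ + j + 1) := by
  classical
  cases nonempty_fintype ι
  induction j with
  | zero =>
    intro x hx
    obtain ⟨c, hc⟩ := hs x hx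
    exact ⟨c, fun k => by rw [pow_zero, Ideal.one_eq_top]; trivial, hc⟩
  | succ j ih =>
    intro x hx
    obtain ⟨y, hy, hxy⟩ := h (n₀ + j) (by omega) x hx
    choose c hc hcy using fun i => ih (y i) (hy i)
    refine ⟨fun k => ∑ i, a i * c i k, fun k => Ideal.sum_mem _ fun i _ => ?_, ?_⟩
    · rw [pow_succ']
      exact Ideal.mul_mem_mul (Ideal.subset_span ⟨i, rfl⟩) (hc i k)
    · rw [finsum_eq_sum_of_fintype] at hxy
      have h1 : ∑ i, a i • (y i - ∑ k, c i k • s k) ∈ T.F (n₀ + j + 2) :=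
        Submodule.sum_mem _ fun i _ => T.smul_F i _ _ (hcy i)
      have h2 : x - ∑ k, (∑ i, a i * c i k) • s k =
          (x - ∑ i, a i • y i) + ∑ i, a i • (y i - ∑ k, c i k • s k) := by
        simp only [smul_sub, Finset.sum_sub_distrib, Finset.smul_sum, smul_smul, Finset.sum_smul]
        rw [Finset.sum_comm]
        abel
      rw [h2]
      exact Submodule.add_mem _ hxy h1

theorem eq_zero_of_F (x : T.M) (h : ∀ n, x ∈ T.F n) : x = 0 := by
  apply Subtype.ext
  funext n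
  exact h (n + 1) n (by omega)

theorem exists_coeff [Finite ι] [IsPrecomplete (Ideal.span (Set.range a)) A] (n₀ : ℕ)
    (h : ∀ n, n₀ ≤ n → ∀ x ∈ T.F (n + 1), ∃ y : ι → T.M, (∀ i, y i ∈ T.F n) ∧
      x - ∑ᶠ i, a i • y i ∈ T.F (n + 2)) {κ : Type*} [Fintype κ] (s : κ → T.M)
    (hs : ∀ x ∈ T.F n₀, ∃ c : κ → A, x - ∑ k, c k • s k ∈ T.F (n₀ + 1)) (m : ℕ) (x : T.M)
    (hx : x ∈ T.F (n₀ + m)) : ∃ c : κ → A, (∀ k, c k ∈ Ideal.span (Set.range a) ^ m) ∧
      x = ∑ k, c k • s k := by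
  classical
  let J := Ideal.span (Set.range a)
  have hstep : ∀ j (y : {y : T.M // y ∈ T.F (n₀ + (m + j))}), ∃ c : κ → A,
      (∀ k, c k ∈ J ^ (m + j)) ∧ y.1 - ∑ k, c k • s k ∈ T.F (n₀ + (m + (j + 1))) :=
    fun j y => T.approx n₀ h s hs (m + j) y.1 y.2
  choose cc hcc hcc' using hstep
  let Y : ∀ j, {y : T.M // y ∈ T.F (n₀ + (m + j))} := fun j =>
    Nat.rec ⟨x, hx⟩ (fun j y => ⟨y.1 - ∑ k, cc j y k • s k, hcc' j y⟩) j
  have hY0 : (Y 0).1 = x := rfl
  have hYs : ∀ j, (Y (j + 1)).1 = (Y j).1 - ∑ k, cc j (Y j) k • s k := fun j => rfl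
  have hY : ∀ n, x - (Y n).1 = ∑ k, (∑ j ∈ Finset.range n, cc j (Y j) k) • s k := by
    intro n
    induction n with
    | zero => simp [hY0]
    | succ n ih =>
      rw [hYs]
      simp only [Finset.sum_range_succ, add_smul, Finset.sum_add_distrib]
      rw [← ih]
      abel
  obtain ⟨t, ht⟩ := FormalA.AdicFin.exists_sum J (M := κ → A) (fun j => cc j (Y j)) (fun j =>
    FormalA.AdicFin.mem_smul_top_of_coord (J ^ j) _ fun k =>
      Ideal.pow_le_pow_right (by omega) (hcc j (Y j) k))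
  have ht' : ∀ n k, t k - ∑ j ∈ Finset.range n, cc j (Y j) k ∈ J ^ n := by
    intro n k
    have h1 := FormalA.AdicFin.coord_mem_of_mem_smul_top (J ^ n) _ (ht n) k
    simpa using h1
  refine ⟨t, fun k => ?_, ?_⟩
  · have h1 := ht' m k
    have h2 : ∑ j ∈ Finset.range m, cc j (Y j) k ∈ J ^ m :=
      Ideal.sum_mem _ fun j _ => Ideal.pow_le_pow_right (by omega) (hcc j (Y j) k)
    have h3 := Ideal.add_mem _ h1 h2
    rwa [sub_add_cancel] at h3
  · rw [← sub_eq_zero]
    apply T.eq_zero_of_F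
    intro n
    have h1 : x - ∑ k, t k • s k =
        (Y n).1 - ∑ k, (t k - ∑ j ∈ Finset.range n, cc j (Y j) k) • s k := by
      have h2 : ∑ k, (t k - ∑ j ∈ Finset.range n, cc j (Y j) k) • s k =
          ∑ k, t k • s k - ∑ k, (∑ j ∈ Finset.range n, cc j (Y j) k) • s k := by
        rw [← Finset.sum_sub_distrib]
        refine Finset.sum_congr rfl fun k _ => ?_
        rw [eq_sub_iff_add_eq, ← add_smul, sub_add_cancel]
      rw [h2, ← hY n]
      abel
    rw [h1]
    refine Submodule.sub_mem _ (T.F_mono (by omega) (Y n).2) (Submodule.sum_mem _ fun k _ => ?_)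
    have h2 := T.pow_smul_F n 0 _ (ht' n k) (s k) (fun k hk => absurd hk (by omega))
    rwa [zero_add] at h2

/-- a finite family approximating the filtration in a given position. -/
theorem exists_fam [IsNoetherianRing A] [Finite ι] (h0 : Module.Finite A (P 0)) (n : ℕ) :
    ∃ (m : ℕ) (s : Fin m → T.M), (∀ k, s k ∈ T.F n) ∧
      ∀ x ∈ T.F n, ∃ c : Fin m → A, x - ∑ k, c k • s k ∈ T.F (n + 1) := by
  have h1 := T.finite_P h0 n
  let φ : T.M →ₗ[A] P n := (LinearMap.proj n).comp T.M.subtype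
  have h2 : ((T.F n).map φ).FG := IsNoetherian.noetherian _
  obtain ⟨m, g, hg⟩ := Submodule.fg_iff_exists_fin_generating_family.1 h2
  have h3 : ∀ k, ∃ y ∈ T.F n, φ y = g k := fun k => by
    have : g k ∈ (T.F n).map φ := by
      rw [← hg]
      exact Submodule.subset_span ⟨k, rfl⟩
    exact this
  choose s hs hsg using h3
  refine ⟨m, s, hs, fun x hx => ?_⟩
  have h4 : φ x ∈ Submodule.span A (Set.range g) := by
    rw [hg]
    exact ⟨x, hx, rfl⟩
  obtain ⟨c, hc⟩ := (Submodule.mem_span_range_iff_exists_fun A).1 h4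
  refine ⟨c, ?_⟩
  rw [mem_F_succ]
  change φ (x - ∑ k, c k • s k) = 0
  rw [map_sub, map_sum, ← hc, sub_eq_zero]
  refine Finset.sum_congr rfl fun k _ => ?_
  rw [map_smul, hsg]

/-- the limit is finite, and its filtration is `J`-adic up to a shift. -/
theorem finite_and_ker_le [IsNoetherianRing A] [Finite ι]
    [IsPrecomplete (Ideal.span (Set.range a)) A] (h0 : Module.Finite A (P 0)) :
    Module.Finite A T.M ∧ ∃ n₀ : ℕ, ∀ m, ∀ x ∈ T.F (n₀ + m),
      x ∈ (Ideal.span (Set.range a) ^ m • (⊤ : Submodule A T.M)) := by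
  obtain ⟨n₀', h'⟩ := T.exists_gen h0
  have h : ∀ n, n₀' + 1 ≤ n → ∀ x ∈ T.F (n + 1), ∃ y : ι → T.M, (∀ i, y i ∈ T.F n) ∧
      x - ∑ᶠ i, a i • y i ∈ T.F (n + 2) := fun n hn => h' n (by omega)
  obtain ⟨m, s, hs, hs'⟩ := T.exists_fam h0 (n₀' + 1)
  have key := T.exists_coeff (n₀' + 1) h s hs'
  refine ⟨?_, n₀' + 1, fun m x hx => ?_⟩
  · have h1 := T.finite_P h0 n₀'
    let φ : T.M →ₗ[A] P n₀' := (LinearMap.proj n₀').comp T.M.subtype
    refine ⟨Submodule.fg_of_fg_map_of_fg_inf_ker φ (IsNoetherian.noetherian _) ?_⟩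
    have h2 : (⊤ : Submodule A T.M) ⊓ LinearMap.ker φ = Submodule.span A (Set.range s) := by
      rw [top_inf_eq]
      apply le_antisymm
      · intro x hx
        obtain ⟨c, -, hc⟩ := key 0 x ((T.mem_F_succ n₀' x).2 hx)
        rw [hc]
        exact Submodule.sum_mem _ fun k _ => Submodule.smul_mem _ _ (Submodule.subset_span ⟨k, rfl⟩)
      · rw [Submodule.span_le]
        rintro _ ⟨k, rfl⟩
        exact (T.mem_F_succ n₀' (s k)).1 (hs k)
    rw [h2]
    exact Submodule.fg_span (Set.finite_range s)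
  · obtain ⟨c, hc, hx⟩ := key m x hx
    rw [hx]
    exact Submodule.sum_mem _ fun k _ => Submodule.smul_mem_smul (hc k) trivial

/-! ### The cokernel -/

theorem exists_pow_comp [IsNoetherianRing A] (𝔞 : Ideal A)
    (htor : ∀ n (x : Q n), ∃ k : ℕ, ∀ b ∈ 𝔞 ^ k, b • x = 0) (n : ℕ) (y : P n) (L : ℕ) (hL : n ≤ L) :
    ∃ e : ℕ, ∀ b ∈ 𝔞 ^ e, ∃ z ∈ comp T.π L, z n = b • y := by
  classical
  induction L, hL using Nat.le_induction with
  | base => exact ⟨0, fun b _ => exists_comp T.π n (b • y)⟩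
  | succ L hL ih =>
    obtain ⟨e, he⟩ := ih
    obtain ⟨r, g, hg⟩ := Submodule.fg_iff_exists_fin_generating_family.1
      (IsNoetherian.noetherian (𝔞 ^ e : Submodule A A))
    have hgm : ∀ j, g j ∈ 𝔞 ^ e := fun j => by
      have : g j ∈ Submodule.span A (Set.range g) := Submodule.subset_span ⟨j, rfl⟩
      rw [hg] at this
      exact this
    choose z hz hzn using fun j => he (g j) (hgm j)
    choose k hk using fun j => htor (L + 1) (T.δ L (z j L))
    let I : Ideal A := ((comp T.π (L + 1)).map (LinearMap.proj n)).comap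
      (LinearMap.toSpanSingleton A (P n) y)
    have hI : ∀ c, c ∈ I ↔ ∃ z ∈ comp T.π (L + 1), z n = c • y := fun c => Iff.rfl
    have h1 : ∀ b ∈ 𝔞 ^ (Finset.univ.sup k), ∀ j, b * g j ∈ I := by
      intro b hb j
      obtain ⟨s, hs⟩ := T.ex L (b • z j L) (by
        rw [map_smul]
        exact hk j b (Ideal.pow_le_pow_right (Finset.le_sup (Finset.mem_univ j)) hb))
      obtain ⟨w, hw, hws⟩ := exists_comp T.π (L + 1) s
      refine (hI _).2 ⟨w, hw, ?_⟩
      have h4 : w L = (b • z j) L := by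
        rw [← hw L (by omega), hws, hs, Pi.smul_apply]
      rw [eq_of_comp (comp_mono (Nat.le_succ L) hw) (Submodule.smul_mem _ b (hz j)) h4 n hL,
        Pi.smul_apply, hzn, mul_smul]
    refine ⟨Finset.univ.sup k + e, fun b hb => ?_⟩
    have h2 : 𝔞 ^ (Finset.univ.sup k + e) ≤ I := by
      rw [pow_add, Ideal.mul_le]
      intro b hb c hc
      have hc' : c ∈ Submodule.span A (Set.range g) := by rw [hg]; exact hc
      induction hc' using Submodule.span_induction with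
      | mem x hx => obtain ⟨j, rfl⟩ := hx; exact h1 b hb j
      | zero => rw [mul_zero]; exact I.zero_mem
      | add x y hx' hy' hx hy =>
        rw [mul_add]
        exact I.add_mem (hx (by rw [hg] at hx'; exact hx')) (hy (by rw [hg] at hy'; exact hy'))
      | smul c x hx' hx =>
        rw [smul_eq_mul, mul_left_comm]
        exact I.mul_mem_left _ (hx (by rw [hg] at hx'; exact hx'))
    exact (hI b).1 (h2 hb)

theorem exists_pow_comp' [IsNoetherianRing A] [Finite ι] (hP : Module.Finite A (P 0)) (𝔞 : Ideal A)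
    (htor : ∀ n (x : Q n), ∃ k : ℕ, ∀ b ∈ 𝔞 ^ k, b • x = 0) (n L : ℕ) (hL : n ≤ L) :
    ∃ e : ℕ, ∀ b ∈ 𝔞 ^ e, ∀ y : P n, ∃ z ∈ comp T.π L, z n = b • y := by
  classical
  have hn := T.finite_P hP n
  obtain ⟨r, g, hg⟩ := Submodule.fg_iff_exists_fin_generating_family.1 hn.fg_top
  choose e he using fun j => T.exists_pow_comp 𝔞 htor n (g j) L hL
  refine ⟨Finset.univ.sup e, fun b hb y => ?_⟩
  let S : Submodule A (P n) := ((comp T.π L).map (LinearMap.proj n)).comap (LinearMap.lsmul A (P n) b)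
  have h1 : (⊤ : Submodule A (P n)) ≤ S := by
    rw [← hg, Submodule.span_le]
    rintro _ ⟨j, rfl⟩
    exact he j b (Ideal.pow_le_pow_right (Finset.le_sup (Finset.mem_univ j)) hb)
  exact h1 (Submodule.mem_top (x := y))

/-- A power of `𝔞` multiplies `H^0(G_n)` into the image of the limit. -/
theorem exists_pow_le [IsNoetherianRing A] [Finite ι] (hP : Module.Finite A (P 0))
    (hQ : Module.Finite A (Q 0)) (𝔞 : Ideal A)
    (htor : ∀ n (x : Q n), ∃ k : ℕ, ∀ b ∈ 𝔞 ^ k, b • x = 0) (n : ℕ) :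
    ∃ e : ℕ, ∀ b ∈ 𝔞 ^ e, ∀ y : P n, ∃ z ∈ T.M, z n = b • y := by
  obtain ⟨n₁, hn₁, h⟩ := T.exists_stable hQ
  obtain ⟨e, he⟩ := T.exists_pow_comp' hP 𝔞 htor n (n + n₁) (by omega)
  refine ⟨e, fun b hb y => ?_⟩
  obtain ⟨z, hz, hzn⟩ := he b hb y
  obtain ⟨w, hw, hwz⟩ := T.exists_lift n₁ hn₁ h (n + n₁) z hz
  exact ⟨w, hw, by rw [hwz n le_rfl, hzn]⟩

end Tower

end Groth.Agent.Sga2lef.H100.GrTower
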