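import Groth.Agent.FormalB.PrincTower
import Groth.Agent.Sga2lef.H100.GrTower

/-!
# The graded pieces of a formal system along an ideal `J` and the operators given by elements of `J`

`G` a formal system for `J` on a scheme `X` over `Spec A`: `mu a n : G_n → G_{n+1}` (multiplication by
`a ∈ J`), `K n = ker (G_n → G_{n-1})` (`K 0 = G_0`), `kmu a n : K n → K (n+1)`,
`kap n ω : G_0 → K n` (`ω ∈ J^n`).
-/

set_option autoImplicit false
universe u

open CategoryTheory CategoryTheory.Limits AlgebraicGeometry Opposite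

namespace Groth.Agent.Sga2lef.H100.GrSys

open Groth.Agent.FormalB.ModPow Groth.Agent.FormalB.HMod Groth.Agent.FormalB.PrincTower

variable {A : Type u} [CommRing A] {X : Scheme.{u}} [X.Over (Spec (CommRingCat.of A))]
  {J : Ideal A} {G : ℕᵒᵖ ⥤ X.Modules}

theorem mu_exists (hG : IsFormal J G) (a : J) (n : ℕ) :
    ∃ μ : G.obj (op n) ⟶ G.obj (op (n + 1)), tr G n ≫ μ = Formal.smulMod A _ (a : A) := by
  refine (hG.succ n).desc _ (fun b hb => ?_)
  rw [← smulMod_mul]
  apply hG.killed (n + 1)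
  rw [pow_succ']
  exact Ideal.mul_mem_mul a.2 hb

/-- Multiplication by `a ∈ J` as a map `G_n → G_{n+1}`. -/
noncomputable def mu (hG : IsFormal J G) (a : J) (n : ℕ) :
    G.obj (op n) ⟶ G.obj (op (n + 1)) := (mu_exists hG a n).choose

@[reassoc]
theorem tr_mu (hG : IsFormal J G) (a : J) (n : ℕ) :
    tr G n ≫ mu hG a n = Formal.smulMod A _ (a : A) := (mu_exists hG a n).choose_spec

@[reassoc]
theorem mu_tr (hG : IsFormal J G) (a : J) (n : ℕ) :
    mu hG a n ≫ tr G n = Formal.smulMod A _ (a : A) := by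
  have := (hG.succ n).epi
  rw [← cancel_epi (tr G n), tr_mu_assoc, smulMod_naturality]

theorem mu_naturality (hG : IsFormal J G) (a : J) (n : ℕ) :
    mu hG a (n + 1) ≫ tr G (n + 1) = tr G n ≫ mu hG a n := by
  rw [mu_tr, tr_mu]

theorem mu_comm (hG : IsFormal J G) (a b : J) (n : ℕ) :
    mu hG a n ≫ mu hG b (n + 1) = mu hG b n ≫ mu hG a (n + 1) := by
  have key : ∀ a b : J, tr G (n + 1) ≫ tr G n ≫ mu hG a n ≫ mu hG b (n + 1) =
      Formal.smulMod A _ ((b : A) * (a : A)) := by
    intro a b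
    rw [tr_mu_assoc, ← smulMod_naturality_assoc, tr_mu, smulMod_mul]
  have h1 := (hG.succ n).epi
  have h2 := (hG.succ (n + 1)).epi
  rw [← cancel_epi (tr G n), ← cancel_epi (tr G (n + 1)), key, key, mul_comm]

/-- The graded pieces. -/
noncomputable def K (G : ℕᵒᵖ ⥤ X.Modules) : ℕ → X.Modules
  | 0 => G.obj (op 0)
  | n + 1 => kernel (tr G n)

/-- The inclusions. -/
noncomputable def io (G : ℕᵒᵖ ⥤ X.Modules) : ∀ n, K G n ⟶ G.obj (op n)
  | 0 => 𝟙 _
  | n + 1 => kernel.ι (tr G n)

instance (n : ℕ) : Mono (io G n) := by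
  cases n with
  | zero => exact inferInstanceAs (Mono (𝟙 _))
  | succ n => exact inferInstanceAs (Mono (kernel.ι (tr G n)))

@[reassoc (attr := simp)]
theorem io_tr (n : ℕ) : io G (n + 1) ≫ tr G n = 0 := kernel.condition _

theorem io_smul (hG : IsFormal J G) (a : J) (n : ℕ) :
    io G n ≫ Formal.smulMod A _ (a : A) = 0 := by
  cases n with
  | zero =>
    rw [hG.killed 0 a (by simp), comp_zero]
  | succ n => rw [← tr_mu hG a n, io_tr_assoc, zero_comp]

/-- lifting to the graded pieces. -/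
noncomputable def liftK (G : ℕᵒᵖ ⥤ X.Modules) (n : ℕ) {Z : X.Modules} (φ : Z ⟶ G.obj (op (n + 1)))
    (h : φ ≫ tr G n = 0) : Z ⟶ K G (n + 1) := kernel.lift (tr G n) φ h

@[reassoc (attr := simp)]
theorem liftK_io (n : ℕ) {Z : X.Modules} (φ : Z ⟶ G.obj (op (n + 1)))
    (h : φ ≫ tr G n = 0) : liftK G n φ h ≫ io G (n + 1) = φ := kernel.lift_ι _ _ _

/-- Multiplication by `a ∈ J` on the graded pieces. -/
noncomputable def kmu (hG : IsFormal J G) (a : J) (n : ℕ) : K G n ⟶ K G (n + 1) :=
  liftK G n (io G n ≫ mu hG a n) (by rw [Category.assoc, mu_tr, io_smul hG])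

@[reassoc (attr := simp)]
theorem kmu_io (hG : IsFormal J G) (a : J) (n : ℕ) :
    kmu hG a n ≫ io G (n + 1) = io G n ≫ mu hG a n := liftK_io _ _ _

theorem kmu_comm (hG : IsFormal J G) (a b : J) (n : ℕ) :
    kmu hG a n ≫ kmu hG b (n + 1) = kmu hG b n ≫ kmu hG a (n + 1) := by
  rw [← cancel_mono (io G (n + 2)), Category.assoc, Category.assoc, kmu_io, kmu_io,
    kmu_io_assoc, kmu_io_assoc, mu_comm]

theorem shortExact (hG : IsFormal J G) (n : ℕ) :
    (ShortComplex.mk (io G (n + 1)) (tr G n) (io_tr n)).ShortExact where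
  exact := ShortComplex.exact_of_f_is_kernel _ (kernelIsKernel (tr G n))
  mono_f := inferInstanceAs (Mono (io G (n + 1)))
  epi_g := (hG.succ n).epi

/-! ### The maps `G_0 → K n` -/

theorem m_exists (hG : IsFormal J G) (n : ℕ) (ω : A) (hω : ω ∈ J ^ n) :
    ∃ μ : G.obj (op 0) ⟶ G.obj (op n), t0 G n ≫ μ = Formal.smulMod A _ ω := by
  refine (hG.isModPow (Nat.zero_le n)).desc _ (fun b hb => ?_)
  rw [← smulMod_mul]
  apply hG.killed n
  rw [pow_succ]
  exact Ideal.mul_mem_mul hω (by simpa using hb)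

/-- Multiplication by `ω ∈ J^n` as a map `G_0 → G_n`. -/
noncomputable def m (hG : IsFormal J G) (n : ℕ) (ω : A) (hω : ω ∈ J ^ n) :
    G.obj (op 0) ⟶ G.obj (op n) := (m_exists hG n ω hω).choose

@[reassoc]
theorem t0_m (hG : IsFormal J G) (n : ℕ) (ω : A) (hω : ω ∈ J ^ n) :
    t0 G n ≫ m hG n ω hω = Formal.smulMod A _ ω := (m_exists hG n ω hω).choose_spec

theorem epi_t0 (hG : IsFormal J G) (n : ℕ) : Epi (t0 G n) := (hG.isModPow (Nat.zero_le n)).epi

theorem m_tr (hG : IsFormal J G) (n : ℕ) (ω : A) (hω : ω ∈ J ^ (n + 1)) :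
    m hG (n + 1) ω hω ≫ tr G n = 0 := by
  have := epi_t0 hG (n + 1)
  rw [← cancel_epi (t0 G (n + 1)), t0_m_assoc, smulMod_naturality, hG.killed n ω hω, comp_zero,
    comp_zero]

/-- Multiplication by `ω ∈ J^n` as a map `G_0 → K n`. -/
noncomputable def kap (hG : IsFormal J G) : ∀ (n : ℕ) (ω : A) (_ : ω ∈ J ^ n),
    G.obj (op 0) ⟶ K G n
  | 0, ω, hω => m hG 0 ω hω
  | n + 1, ω, hω => liftK G n (m hG (n + 1) ω hω) (m_tr hG n ω hω)

@[reassoc (attr := simp)]
theorem kap_io (hG : IsFormal J G) (n : ℕ) (ω : A) (hω : ω ∈ J ^ n) :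
    kap hG n ω hω ≫ io G n = m hG n ω hω := by
  cases n with
  | zero => exact Category.comp_id _
  | succ n => exact liftK_io _ _ _

theorem kap_mul (hG : IsFormal J G) (n : ℕ) (a : J) (ω : A) (hω : ω ∈ J ^ n)
    (h : (a : A) * ω ∈ J ^ (n + 1)) :
    kap hG (n + 1) (a * ω) h = kap hG n ω hω ≫ kmu hG a n := by
  have := epi_t0 hG (n + 1)
  rw [← cancel_mono (io G (n + 1)), kap_io, Category.assoc, kmu_io, kap_io_assoc,
    ← cancel_epi (t0 G (n + 1)), t0_m, ← tr_t0, Category.assoc, t0_m_assoc,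
    ← smulMod_naturality_assoc, tr_mu, smulMod_mul]

theorem kap_add (hG : IsFormal J G) (n : ℕ) (ω ω' : A) (hω : ω ∈ J ^ n) (hω' : ω' ∈ J ^ n)
    (h : ω + ω' ∈ J ^ n) : kap hG n (ω + ω') h = kap hG n ω hω + kap hG n ω' hω' := by
  have := epi_t0 hG n
  rw [← cancel_mono (io G n), kap_io, Preadditive.add_comp, kap_io, kap_io,
    ← cancel_epi (t0 G n), t0_m, Preadditive.comp_add, t0_m, t0_m, smulMod_add]

/-- every `kap (n+1) ω` is a sum of maps factoring through the operators. -/
theorem kap_ind (hG : IsFormal J G) {ι : Type*} (a : ι → J)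
    (ha : Ideal.span (Set.range fun i => (a i : A)) = J) (n : ℕ)
    (S : AddSubgroup (G.obj (op 0) ⟶ K G (n + 1)))
    (hS : ∀ i (φ : G.obj (op 0) ⟶ K G n), φ ≫ kmu hG (a i) n ∈ S) (ω : A) (hω : ω ∈ J ^ (n + 1)) :
    kap hG (n + 1) ω hω ∈ S := by
  have key : ∀ b ∈ J, ∀ c (hc : c ∈ J ^ n) (h : b * c ∈ J ^ (n + 1)), kap hG (n + 1) (b * c) h ∈ S := by
    intro b hb
    rw [← ha] at hb
    induction hb using Submodule.span_induction with
    | mem b hb =>
      obtain ⟨i, rfl⟩ := hb
      intro c hc h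
      rw [kap_mul hG n (a i) c hc h]
      exact hS i _
    | zero =>
      intro c hc h
      have h0 : kap hG (n + 1) (0 * c) h = 0 := by
        have := epi_t0 hG (n + 1)
        rw [← cancel_mono (io G (n + 1)), kap_io, zero_comp, ← cancel_epi (t0 G (n + 1)), t0_m,
          zero_mul, smulMod_zero, comp_zero]
      rw [h0]
      exact S.zero_mem
    | add x y hx hy hx' hy' =>
      intro c hc h
      have hxJ : x ∈ J := by rw [← ha]; exact hx
      have hyJ : y ∈ J := by rw [← ha]; exact hy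
      have h1 : x * c ∈ J ^ (n + 1) := by rw [pow_succ']; exact Ideal.mul_mem_mul hxJ hc
      have h2 : y * c ∈ J ^ (n + 1) := by rw [pow_succ']; exact Ideal.mul_mem_mul hyJ hc
      have h3 : kap hG (n + 1) ((x + y) * c) h = kap hG (n + 1) (x * c) h1 +
          kap hG (n + 1) (y * c) h2 := by
        rw [← kap_add hG (n + 1) _ _ h1 h2 (by rw [← add_mul]; exact h)]
        congr 1
        exact add_mul _ _ _
      rw [h3]
      exact S.add_mem (hx' c hc h1) (hy' c hc h2)
    | smul r x hx hx' =>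
      intro c hc h
      have hxJ : x ∈ J := by rw [← ha]; exact hx
      have h1 : x * (r * c) ∈ J ^ (n + 1) := by
        rw [pow_succ']; exact Ideal.mul_mem_mul hxJ (Ideal.mul_mem_left _ _ hc)
      have h3 : kap hG (n + 1) ((r • x) * c) h = kap hG (n + 1) (x * (r * c)) h1 := by
        congr 1
        rw [smul_eq_mul]; ring
      rw [h3]
      exact hx' (r * c) (Ideal.mul_mem_left _ _ hc) h1
  have hω' : ω ∈ J * J ^ n := by rw [← pow_succ']; exact hω
  induction hω' using Submodule.mul_induction_on' with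
  | mem_mul_mem b hb c hc => exact key b hb c hc hω
  | add x hx y hy hx' hy' =>
    have h1 : x ∈ J ^ (n + 1) := by rw [pow_succ']; exact hx
    have h2 : y ∈ J ^ (n + 1) := by rw [pow_succ']; exact hy
    rw [kap_add hG (n + 1) _ _ h1 h2 hω]
    exact S.add_mem (hx' h1) (hy' h2)

/-- The condition: cohomology of `K n` is generated by the images of cohomology of `G_0`. -/
def Gen (hG : IsFormal J G) (j : ℕ) : Prop :=
  ∀ (n : ℕ) (x : (HM A X j).obj (K G (n + 1))), x ∈ AddSubgroup.closure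
    {y | ∃ (ω : A) (hω : ω ∈ J ^ (n + 1)) (z : (HM A X j).obj (G.obj (op 0))),
      (HM A X j).map (kap hG (n + 1) ω hω) z = y}

theorem Gen.le_iSup {hG : IsFormal J G} {j : ℕ} (h : Gen hG j) {ι : Type*} (a : ι → J)
    (ha : Ideal.span (Set.range fun i => (a i : A)) = J) (n : ℕ) :
    (⊤ : Submodule A ((HM A X j).obj (K G (n + 1)))) ≤
      ⨆ i, LinearMap.range ((HM A X j).map (kmu hG (a i) n)).hom := by
  intro x _
  let R := ⨆ i, LinearMap.range ((HM A X j).map (kmu hG (a i) n)).hom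
  have h1 : AddSubgroup.closure {y | ∃ (ω : A) (hω : ω ∈ J ^ (n + 1))
      (z : (HM A X j).obj (G.obj (op 0))), (HM A X j).map (kap hG (n + 1) ω hω) z = y} ≤
      R.toAddSubgroup := by
    rw [AddSubgroup.closure_le]
    rintro _ ⟨ω, hω, z, rfl⟩
    let S : AddSubgroup (G.obj (op 0) ⟶ K G (n + 1)) :=
      { carrier := {φ | ∀ z : (HM A X j).obj (G.obj (op 0)), (HM A X j).map φ z ∈ R}
        zero_mem' := fun z => by
          rw [Functor.map_zero]; exact R.zero_mem
        add_mem' := fun {φ ψ} h h' z => by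
          rw [Functor.map_add]; exact R.add_mem (h z) (h' z)
        neg_mem' := fun {φ} h z => by
          rw [Functor.map_neg]; exact R.neg_mem (h z) }
    refine kap_ind hG a ha n S ?_ ω hω z
    intro i φ z
    rw [Functor.map_comp]
    exact Submodule.mem_iSup_of_mem i ⟨(HM A X j).map φ z, rfl⟩
  exact h1 (h n x)

/-- The tower of cohomology groups. -/
noncomputable def tower (hG : IsFormal J G) {ι : Type*} (a : ι → J)
    (ha : Ideal.span (Set.range fun i => (a i : A)) = J) (h0 : Gen hG 0) (h1 : Gen hG 1) :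
    GrTower.Tower A (fun i => (a i : A)) (fun n => HG A G 0 n)
      (fun n => (HM A X 1).obj (K G n)) where
  π n := ((HM A X 0).map (tr G n)).hom
  μ i n := ((HM A X 0).map (mu hG (a i) n)).hom
  ν i n := ((HM A X 1).map (kmu hG (a i) n)).hom
  δ n := (dm A (io G (n + 1)) (tr G n) (io_tr n) (shortExact hG n) 0).hom
  kill i x := by
    rw [← map_smulMod, hG.killed 0 (a i) (by simp), Functor.map_zero]; rfl
  μπ i n x := by
    rw [← LinearMap.comp_apply, ← ModuleCat.hom_comp, ← Functor.map_comp, tr_mu, ← map_smulMod]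
  πμ i n x := by
    rw [← LinearMap.comp_apply, ← ModuleCat.hom_comp, ← Functor.map_comp, mu_tr, ← map_smulMod]
  μ_comm i j n x := by
    rw [← LinearMap.comp_apply, ← ModuleCat.hom_comp, ← Functor.map_comp, mu_comm,
      Functor.map_comp]
    rfl
  ν_comm i j n x := by
    rw [← LinearMap.comp_apply, ← ModuleCat.hom_comp, ← Functor.map_comp, kmu_comm,
      Functor.map_comp]
    rfl
  δμ i n x := by
    have := dm_naturality A _ _ _ _ _ _ (shortExact hG n) (shortExact hG (n + 1))
      (kmu hG (a i) (n + 1)) (mu hG (a i) (n + 1)) (mu hG (a i) n) (kmu_io hG (a i) (n + 1))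
      (mu_naturality hG (a i) n) 0
    exact congrArg (fun t => t.hom x) this.symm
  ex n x hx := exact_P A _ _ _ (shortExact hG n) 0 x hx
  genP0 x hx := by
    obtain ⟨y, hy⟩ := exact_N A _ _ _ (shortExact hG 0) 0 x hx
    have h2 := h0.le_iSup a ha 0 (Submodule.mem_top (x := y))
    have h3 : (⨆ i, LinearMap.range ((HM A X 0).map (kmu hG (a i) 0)).hom) ≤
        (⨆ i, LinearMap.range ((HM A X 0).map (mu hG (a i) 0)).hom).comap
          ((HM A X 0).map (io G 1)).hom := by
      refine iSup_le fun i => ?_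
      rintro _ ⟨z, rfl⟩
      refine Submodule.mem_iSup_of_mem i ⟨(HM A X 0).map (io G 0) z, ?_⟩
      have h4 := congrArg (fun t => ((HM A X 0).map t).hom z) (kmu_io hG (a i) 0)
      simp only [Functor.map_comp] at h4
      exact h4.symm
    have h5 := h3 h2
    rw [← hy]
    exact h5
  genP n x hx := by
    obtain ⟨y, hy⟩ := exact_N A _ _ _ (shortExact hG (n + 1)) 0 x hx
    have h2 := h0.le_iSup a ha (n + 1) (Submodule.mem_top (x := y))
    have h3 : (⨆ i, LinearMap.range ((HM A X 0).map (kmu hG (a i) (n + 1))).hom) ≤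
        (⨆ i, (LinearMap.ker ((HM A X 0).map (tr G n)).hom).map
          ((HM A X 0).map (mu hG (a i) (n + 1))).hom).comap
          ((HM A X 0).map (io G (n + 2))).hom := by
      refine iSup_le fun i => ?_
      rintro _ ⟨z, rfl⟩
      refine Submodule.mem_iSup_of_mem i ⟨(HM A X 0).map (io G (n + 1)) z, ?_, ?_⟩
      · have h4 := congrArg (fun t => ((HM A X 0).map t).hom z) (io_tr (G := G) n)
        simp only [Functor.map_comp, Functor.map_zero] at h4
        exact h4
      · have h4 := congrArg (fun t => ((HM A X 0).map t).hom z) (kmu_io hG (a i) (n + 1))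
        simp only [Functor.map_comp] at h4
        exact h4.symm
    have h5 := h3 h2
    rw [← hy]
    exact h5
  genQ n := h1.le_iSup a ha n

end Groth.Agent.Sga2lef.H100.GrSys
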